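/-
Groups acting on a normal subgroup of order `60` of `PSL_2(11)`.
-/
import Cfsg.Agent.H579.MaxPNilRed
import Cfsg.Agent.H579.ElevenMat

set_option autoImplicit false

namespace Cfsg.Agent.H579.ElevenRed

open Cfsg Subgroup
open Cfsg.Agent.H579.MaxPNilRed Cfsg.Agent.H579.ElevenMat

instance fact5 : Fact (Nat.Prime 5) := ⟨by norm_num⟩

set_option linter.unusedSectionVars false

section abstract

variable {Γ : Type*} [Group Γ] [Finite Γ] {H : Subgroup Γ} [hH : H.Normal]

/-- The action of `Γ` on the Sylow subgroups of the normal subgroup `H`. -/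
noncomputable def ac (g : Γ) (P : Sylow 5 H) : Sylow 5 H := (MulAut.conjNormal g : MulAut H) • P

theorem ac_mul (g h : Γ) (P : Sylow 5 H) : ac (g * h) P = ac g (ac h P) := by
  rw [ac, ac, ac, map_mul, mul_smul]

theorem ac_one (P : Sylow 5 H) : ac (1 : Γ) P = P := by
  rw [ac, map_one, one_smul]

theorem mem_ac (g : Γ) (P : Sylow 5 H) (x : H) :
    MulAut.conjNormal g x ∈ ac g P ↔ x ∈ P := by
  have h1 : (MulAut.conjNormal g : MulAut H) x ∈
      (((MulAut.conjNormal g : MulAut H) • P : Sylow 5 H) : Subgroup H) ↔ x ∈ (P : Subgroup H) := by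
    rw [Sylow.pointwise_smul_def, Subgroup.mem_pointwise_smul_iff_inv_smul_mem]
    have : (MulAut.conjNormal g : MulAut H)⁻¹ • (MulAut.conjNormal g : MulAut H) x = x :=
      (MulAut.conjNormal g : MulAut H).symm_apply_apply x
    rw [this]
  exact h1

theorem ac_inj (g : Γ) {P P' : Sylow 5 H} (h : ac g P = ac g P') : P = P' := by
  have h1 := congrArg (ac g⁻¹) h
  rw [← ac_mul, ← ac_mul, inv_mul_cancel, ac_one, ac_one] at h1
  exact h1

/-- `H` is transitive on its Sylow subgroups. -/
theorem exists_ac (P P' : Sylow 5 H) : ∃ h : H, ac (h : Γ) P = P' := by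
  obtain ⟨h, hh⟩ := MulAction.exists_smul_eq H P P'
  refine ⟨h, ?_⟩
  rw [← hh]
  apply Sylow.ext
  ext x
  rw [Sylow.coe_subgroup_smul, Subgroup.mem_pointwise_smul_iff_inv_smul_mem, ac,
    Sylow.pointwise_smul_def, Subgroup.mem_pointwise_smul_iff_inv_smul_mem]
  have h1 : (MulAut.conjNormal (h : Γ) : MulAut H)⁻¹ • x = (MulAut.conj h)⁻¹ • x := by
    apply Subtype.ext
    change ((MulAut.conjNormal (h : Γ) : MulAut H)⁻¹ x : Γ) = (((MulAut.conj h)⁻¹ x : H) : Γ)
    rw [← map_inv, ← map_inv, MulAut.conjNormal_apply, MulAut.conj_apply]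
    rfl
  rw [h1]

/-- The hypotheses on the pair `H ≤ Γ`. -/
structure Hy (Γ : Type*) [Group Γ] (H : Subgroup Γ) [H.Normal] : Prop where
  card : Nat.card H = 60
  h1 : ∀ x n : H, x ^ 5 = 1 → x ≠ 1 → n * x = x * n → ∃ i : ℕ, n = x ^ i
  h2 : ∀ (g : Γ) (x : H), x ^ 5 = 1 → x ≠ 1 → MulAut.conjNormal g x ≠ x ^ 2
  h3 : ∀ g : Γ, g ≠ 1 → ∀ x y : H, x ^ 5 = 1 → y ^ 5 = 1 → MulAut.conjNormal g x = x →
    MulAut.conjNormal g y = y → x * y = y * x

/-- Different Sylow subgroups do not normalise each other. -/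
theorem eq_of_ac (P P' : Sylow 5 H) (hP : Nat.card P = 5) {y : H} (hy : y ∈ P) (hy1 : y ≠ 1)
    (h : ac (y : Γ) P' = P') : P = P' := by
  have h1 : y ∈ normalizer ((P' : Subgroup H) : Set H) := by
    rw [Subgroup.mem_normalizer_iff]
    intro z
    have h2 := mem_ac (y : Γ) P' z
    rw [h, MulAut.conjNormal_val, MulAut.conj_apply] at h2
    exact h2.symm
  have h2 : zpowers y = (P : Subgroup H) := by
    apply Subgroup.eq_of_le_of_card_ge
    · rw [zpowers_le]
      exact hy
    · have h3 : orderOf y ∣ 5 := by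
        rw [← hP]
        have : orderOf (⟨y, hy⟩ : (P : Subgroup H)) = orderOf y := Subgroup.orderOf_mk y hy
        rw [← this]
        exact orderOf_dvd_natCard _
      have h4 : orderOf y = 5 := by
        rcases (Nat.dvd_prime fact5.out).1 h3 with h5 | h5
        · exact absurd (orderOf_eq_one_iff.1 h5) hy1
        · exact h5
      change Nat.card P ≤ _
      rw [hP, Nat.card_zpowers, h4]
  have h3 : (P : Subgroup H) ≤ normalizer ((P' : Subgroup H) : Set H) := by
    rw [← h2, zpowers_le]
    exact h1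
  have h4 := P.isPGroup'.inf_normalizer_sylow P'
  have h5 : (P : Subgroup H) ≤ P' := by
    have h6 : (P : Subgroup H) ≤ (P : Subgroup H) ⊓ normalizer ((P' : Subgroup H) : Set H) :=
      le_inf le_rfl h3
    exact h6.trans (h4.le.trans inf_le_right)
  exact Sylow.ext (P.is_maximal' P'.isPGroup' h5).symm

/-- Elements normalising a Sylow subgroup fix it. -/
theorem ac_of_mem (A : Sylow 5 H) (h : H) (hh : h ∈ normalizer ((A : Subgroup H) : Set H)) :
    ac (h : Γ) A = A := by
  apply Sylow.ext
  ext z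
  rw [Subgroup.mem_normalizer_iff] at hh
  have h2 : z = MulAut.conjNormal (h : Γ) (h⁻¹ * z * h) := by
    rw [MulAut.conjNormal_val, MulAut.conj_apply]
    group
  have h3 := mem_ac (h : Γ) A (h⁻¹ * z * h)
  rw [← h2] at h3
  have h4 := hh (h⁻¹ * z * h)
  have h5 : h * (h⁻¹ * z * h) * h⁻¹ = z := by group
  rw [h5] at h4
  exact h3.trans h4

/-- The main argument. -/
theorem eq_top (D : Hy Γ H) : H = ⊤ := by
  classical
  obtain ⟨P⟩ : Nonempty (Sylow 5 H) := inferInstance
  have hcard : ∀ A : Sylow 5 H, Nat.card A = 5 := by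
    intro A
    have h1 := Sylow.card_eq_multiplicity A
    rw [D.card] at h1
    have h2 : (60 : ℕ).factorization 5 = 1 := by
      rw [show (60 : ℕ) = 5 * 12 by norm_num, Nat.factorization_mul (by norm_num) (by norm_num),
        Finsupp.add_apply, Nat.Prime.factorization_self fact5.out,
        Nat.factorization_eq_zero_of_not_dvd (by norm_num)]
    rw [h2, pow_one] at h1
    exact h1
  -- generators
  have hgen : ∀ A : Sylow 5 H, ∃ x : H, x ∈ A ∧ x ≠ 1 ∧ x ^ 5 = 1 ∧ ∀ y ∈ A, ∃ i < 5, y = x ^ i := by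
    intro A
    obtain ⟨x, hx⟩ := exists_prime_orderOf_dvd_card' (G := (A : Subgroup H)) 5
      (by rw [show Nat.card (A : Subgroup H) = 5 from hcard A])
    refine ⟨x, x.2, ?_, ?_, ?_⟩
    · intro h
      have h2 : x = 1 := Subtype.ext h
      rw [h2, orderOf_one] at hx
      omega
    · have h2 : x ^ 5 = 1 := by
        have h3 := pow_orderOf_eq_one x
        rwa [hx] at h3
      exact congrArg Subtype.val h2
    · intro y hy
      have h3 : (⟨y, hy⟩ : (A : Subgroup H)) ∈ zpowers x := by
        have h4 : zpowers x = ⊤ := by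
          apply Subgroup.eq_top_of_card_eq
          rw [Nat.card_zpowers, hx]
          exact (hcard A).symm
        rw [h4]
        exact Subgroup.mem_top _
      rw [mem_zpowers_iff_mem_range_orderOf, Finset.mem_image] at h3
      obtain ⟨i, hi, hix⟩ := h3
      rw [hx, Finset.mem_range] at hi
      exact ⟨i, hi, (congrArg Subtype.val hix).symm⟩
  -- elements normalising a Sylow subgroup act by `±1`
  have hpm : ∀ (A : Sylow 5 H) (x : H), x ∈ A → x ≠ 1 → x ^ 5 = 1 →
      (∀ y ∈ A, ∃ i < 5, y = x ^ i) → ∀ g : Γ, ac g A = A →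
      MulAut.conjNormal g x = x ∨ MulAut.conjNormal g x = x⁻¹ := by
    intro A x hxA hx1 hx5 hxg g hg
    have h1 : MulAut.conjNormal g x ∈ A := by
      rw [← hg, mem_ac]
      exact hxA
    obtain ⟨i, hi, hix⟩ := hxg _ h1
    have hinv : x⁻¹ = x ^ 4 := by
      rw [inv_eq_iff_mul_eq_one, ← pow_succ', hx5]
    interval_cases i
    · exfalso
      rw [pow_zero] at hix
      exact hx1 ((MulAut.conjNormal g : MulAut H).injective (hix.trans (map_one _).symm))
    · left
      rw [hix, pow_one]
    · exact absurd hix (D.h2 g x hx5 hx1)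
    · exfalso
      -- `g⁻¹` squares `x`
      apply D.h2 g⁻¹ x hx5 hx1
      have h2 : MulAut.conjNormal g (x ^ 2) = x := by
        rw [map_pow, hix, ← pow_mul]
        calc x ^ (3 * 2) = x ^ 5 * x := by rw [← pow_succ]
          _ = x := by rw [hx5, one_mul]
      rw [map_inv]
      change (MulAut.conjNormal g : MulAut H).symm x = x ^ 2
      rw [MulEquiv.symm_apply_eq]
      exact h2.symm
    · right
      rw [hix, hinv]
  -- the normaliser of a Sylow subgroup has order at most `10`
  have hnorm : ∀ A : Sylow 5 H, Nat.card (normalizer ((A : Subgroup H) : Set H)) ≤ 10 := by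
    intro A
    obtain ⟨x, hxA, hx1, hx5, hxg⟩ := hgen A
    have hac : ∀ h : H, h ∈ normalizer ((A : Subgroup H) : Set H) → ac (h : Γ) A = A := by
      intro h hh
      apply Sylow.ext
      ext z
      rw [Subgroup.mem_normalizer_iff] at hh
      have h2 : z = MulAut.conjNormal (h : Γ) (h⁻¹ * z * h) := by
        rw [MulAut.conjNormal_val, MulAut.conj_apply]
        group
      have h3 := mem_ac (h : Γ) A (h⁻¹ * z * h)
      rw [← h2] at h3
      have h4 := hh (h⁻¹ * z * h)
      have h5 : h * (h⁻¹ * z * h) * h⁻¹ = z := by group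
      rw [h5] at h4
      exact h3.trans h4
    by_cases hall : ∀ h ∈ normalizer ((A : Subgroup H) : Set H), h ∈ (A : Subgroup H)
    · have h2 : normalizer ((A : Subgroup H) : Set H) ≤ A := hall
      have h3 := Subgroup.card_le_of_le h2
      have h4 : Nat.card (A : Subgroup H) = 5 := hcard A
      omega
    · push Not at hall
      obtain ⟨h0, hh0, hh0A⟩ := hall
      have h2 : (normalizer ((A : Subgroup H) : Set H) : Set H) ⊆
          (A : Set H) ∪ (fun z => h0 * z) '' (A : Set H) := by
        intro h hh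
        have hmem : ∀ n : H, n * x = x * n → n ∈ (A : Set H) := by
          intro n hn
          obtain ⟨i, rfl⟩ := D.h1 x n hx5 hx1 hn
          exact (A : Subgroup H).pow_mem hxA i
        have hconj : ∀ n : H, MulAut.conjNormal (n : Γ) x = n * x * n⁻¹ := by
          intro n
          rw [MulAut.conjNormal_val, MulAut.conj_apply]
        rcases hpm A x hxA hx1 hx5 hxg h (hac h hh) with h3 | h3
        · left
          apply hmem
          rw [hconj] at h3
          exact mul_inv_eq_iff_eq_mul.1 h3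
        · right
          refine ⟨h0⁻¹ * h, ?_, by group⟩
          apply hmem
          have h4 : MulAut.conjNormal (h0 : Γ) x = x⁻¹ := by
            rcases hpm A x hxA hx1 hx5 hxg h0 (hac h0 hh0) with h5 | h5
            · exfalso
              apply hh0A
              apply hmem
              rw [hconj] at h5
              exact mul_inv_eq_iff_eq_mul.1 h5
            · exact h5
          rw [hconj] at h3 h4
          have h5 : h0 * x⁻¹ * h0⁻¹ = x := by
            have := congrArg (·⁻¹) h4
            simpa [mul_assoc] using this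
          have h6 : h0⁻¹ * x * h0 = x⁻¹ := by
            calc h0⁻¹ * x * h0 = h0⁻¹ * (h0 * x⁻¹ * h0⁻¹) * h0 := by rw [h5]
              _ = x⁻¹ := by group
          have h7 : h * x = x⁻¹ * h := mul_inv_eq_iff_eq_mul.1 h3
          have h8 : h0⁻¹ * x⁻¹ * h0 = x := by
            have := congrArg (·⁻¹) h6
            simpa [mul_assoc] using this
          calc h0⁻¹ * h * x = h0⁻¹ * (h * x) := by group
            _ = (h0⁻¹ * x⁻¹ * h0) * (h0⁻¹ * h) := by rw [h7]; group
            _ = x * (h0⁻¹ * h) := by rw [h8]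
      have h3 := Set.ncard_le_ncard h2 (Set.toFinite _)
      have h4 := Set.ncard_union_le (A : Set H) ((fun z => h0 * z) '' (A : Set H))
      have h5 : ((fun z => h0 * z) '' (A : Set H)).ncard = (A : Set H).ncard :=
        Set.ncard_image_of_injective _ (mul_right_injective h0)
      have h6 : (A : Set H).ncard = 5 := hcard A
      have h7 : (normalizer ((A : Subgroup H) : Set H) : Set H).ncard
        = Nat.card (normalizer ((A : Subgroup H) : Set H)) := rfl
      omega
  -- there are six Sylow subgroups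
  have hsix : Nat.card (Sylow 5 H) = 6 := by
    have h1 : Nat.card (Sylow 5 H) ∣ (P : Subgroup H).index := Sylow.card_dvd_index P
    have h2 : Nat.card (P : Subgroup H) * (P : Subgroup H).index = 60 := by
      rw [Subgroup.card_mul_index, D.card]
    rw [show Nat.card (P : Subgroup H) = 5 from hcard P] at h2
    have h3 : (P : Subgroup H).index = 12 := by omega
    rw [h3] at h1
    have h4 := card_sylow_modEq_one 5 H
    have h5 : Nat.card (Sylow 5 H) ≤ 12 := Nat.le_of_dvd (by norm_num) h1
    have h6 : Nat.card (Sylow 5 H) = (normalizer ((P : Subgroup H) : Set H)).index :=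
      Sylow.card_eq_index_normalizer P
    have h7 : Nat.card (normalizer ((P : Subgroup H) : Set H)) *
        (normalizer ((P : Subgroup H) : Set H)).index = 60 := by
      rw [Subgroup.card_mul_index, D.card]
    rw [← h6] at h7
    have h8 := hnorm P
    set n := Nat.card (Sylow 5 H) with hn
    have h9 : 6 ≤ n := by
      by_contra hlt
      have : Nat.card (normalizer ((P : Subgroup H) : Set H)) * n ≤ 10 * 5 :=
        Nat.mul_le_mul h8 (by omega)
      omega
    unfold Nat.ModEq at h4
    interval_cases n <;> omega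
  -- setup
  obtain ⟨x, hxP, hx1, hx5, hxg⟩ := hgen P
  have hmemP : ∀ n : H, n * x = x * n → n ∈ P := by
    intro n hn
    obtain ⟨i, rfl⟩ := D.h1 x n hx5 hx1 hn
    exact (P : Subgroup H).pow_mem hxP i
  have hconj : ∀ n z : H, MulAut.conjNormal (n : Γ) z = n * z * n⁻¹ := by
    intro n z
    rw [MulAut.conjNormal_val, MulAut.conj_apply]
  have hPfix : ∀ y ∈ P, ac ((y : H) : Γ) P = P := fun y hy =>
    ac_of_mem P y (Subgroup.le_normalizer hy)
  obtain ⟨n0, hn0⟩ : ∃ n0 : H, MulAut.conjNormal (n0 : Γ) x = x⁻¹ := by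
    have h6 : Nat.card (Sylow 5 H) = (normalizer ((P : Subgroup H) : Set H)).index :=
      Sylow.card_eq_index_normalizer P
    have h7 : Nat.card (normalizer ((P : Subgroup H) : Set H)) *
        (normalizer ((P : Subgroup H) : Set H)).index = 60 := by
      rw [Subgroup.card_mul_index, D.card]
    rw [← h6, hsix] at h7
    by_contra hno
    push Not at hno
    have h8 : normalizer ((P : Subgroup H) : Set H) ≤ P := by
      intro h hh
      rcases hpm P x hxP hx1 hx5 hxg h (ac_of_mem P h hh) with h3 | h3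
      · rw [hconj] at h3
        exact hmemP h (mul_inv_eq_iff_eq_mul.1 h3)
      · exact absurd h3 (hno h)
    have h9 := Subgroup.card_le_of_le h8
    have h10 : Nat.card (P : Subgroup H) = 5 := hcard P
    omega
  by_contra htop
  obtain ⟨m, hm⟩ : ∃ m : Γ, m ∉ H := by
    by_contra h
    push Not at h
    exact htop (eq_top_iff.2 fun x _ => h x)
  obtain ⟨h, hh⟩ := exists_ac (ac m P) P
  obtain ⟨g, hgH, hgP, hgx⟩ : ∃ g : Γ, g ∉ H ∧ ac g P = P ∧ MulAut.conjNormal g x = x := by
    have h1 : (h : Γ) * m ∉ H := fun h2 => hm ((H.mul_mem_cancel_left h.2).1 h2)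
    have h2 : ac ((h : Γ) * m) P = P := by rw [ac_mul, hh]
    rcases hpm P x hxP hx1 hx5 hxg _ h2 with h3 | h3
    · exact ⟨_, h1, h2, h3⟩
    · refine ⟨(n0 : Γ) * (h * m), fun h4 => h1 ((H.mul_mem_cancel_left n0.2).1 h4), ?_, ?_⟩
      · rw [ac_mul, h2]
        apply Sylow.ext
        apply Subgroup.eq_of_le_of_card_ge
        · intro y hy
          have h4 : y = MulAut.conjNormal (n0 : Γ) ((MulAut.conjNormal (n0 : Γ) : MulAut H).symm y) :=
            ((MulAut.conjNormal (n0 : Γ) : MulAut H).apply_symm_apply y).symm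
          have h5 : (MulAut.conjNormal (n0 : Γ) : MulAut H).symm y ∈ P := by
            rw [← mem_ac (n0 : Γ), ← h4]
            exact hy
          obtain ⟨i, -, hi⟩ := hxg _ h5
          rw [h4, hi, map_pow, hn0]
          exact (P : Subgroup H).pow_mem ((P : Subgroup H).inv_mem hxP) i
        · exact ((hcard P).trans (hcard _).symm).le
      · rw [map_mul]
        change MulAut.conjNormal (n0 : Γ) (MulAut.conjNormal ((h : Γ) * m) x) = x
        rw [h3, map_inv, hn0, inv_inv]
  -- another Sylow subgroup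
  obtain ⟨P₂, hP₂⟩ : ∃ P₂ : Sylow 5 H, P₂ ≠ P := by
    have h1 : Nontrivial (Sylow 5 H) := by
      rw [← Finite.one_lt_card_iff_nontrivial, hsix]
      norm_num
    exact exists_ne P
  have hxi : ∀ i : ℕ, 0 < i → i < 5 → x ^ i ≠ 1 := by
    intro i hi hi5 h1
    have h2 : orderOf x = 5 := orderOf_eq_prime hx5 hx1
    have h3 := Nat.le_of_dvd hi (orderOf_dvd_of_pow_eq_one h1)
    omega
  have hpowP : ∀ i : ℕ, x ^ i ∈ P := fun i => (P : Subgroup H).pow_mem hxP i
  have hinj : Function.Injective (fun o : Option (Fin 5) =>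
      (o.elim P (fun i => ac (((x ^ (i : ℕ) : H)) : Γ) P₂) : Sylow 5 H)) := by
    have h0 : ∀ i : ℕ, ac (((x ^ i : H)) : Γ) P₂ ≠ P := by
      intro i h1
      apply hP₂
      apply ac_inj (((x ^ i : H)) : Γ)
      rw [h1, hPfix _ (hpowP i)]
    have h1 : ∀ i j : ℕ, i < j → j < 5 →
        ac (((x ^ i : H)) : Γ) P₂ ≠ ac (((x ^ j : H)) : Γ) P₂ := by
      intro i j hij hj h2
      apply hP₂
      symm
      have h3 : ac (((x ^ (j - i) : H)) : Γ) P₂ = P₂ := by
        apply ac_inj (((x ^ i : H)) : Γ)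
        rw [← ac_mul, ← Subgroup.coe_mul, ← pow_add, h2]
        congr 3
        omega
      exact eq_of_ac P P₂ (hcard P) (hpowP (j - i)) (hxi _ (by omega) (by omega)) h3
    intro a b hab
    rcases a with _ | a <;> rcases b with _ | b
    · rfl
    · exact absurd hab.symm (h0 b)
    · exact absurd hab (h0 a)
    · rcases lt_trichotomy (a : ℕ) b with h | h | h
      · exact absurd hab (h1 _ _ h b.2)
      · rw [Fin.ext h]
      · exact absurd hab.symm (h1 _ _ h a.2)
  have hbij := hinj.bijective_of_nat_card_le (by rw [hsix]; simp)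
  have hall : ∀ A : Sylow 5 H, A ≠ P → ∃ i : ℕ, A = ac (((x ^ i : H)) : Γ) P₂ := by
    intro A hA
    obtain ⟨o, ho⟩ := hbij.2 A
    rcases o with _ | i
    · exact absurd ho.symm hA
    · exact ⟨i, ho.symm⟩
  obtain ⟨a, ha⟩ := hall (ac g P₂) (fun h1 => hP₂ (ac_inj g (h1.trans hgP.symm)))
  -- an element fixing all Sylow subgroups
  obtain ⟨z, hzH, hzx, hzP, hzP₂⟩ : ∃ z : Γ, z ∉ H ∧ MulAut.conjNormal z x = x ∧ ac z P = P ∧
      ac z P₂ = P₂ := by
    refine ⟨((x ^ a : H) : Γ)⁻¹ * g, ?_, ?_, ?_, ?_⟩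
    · intro h1
      exact hgH ((H.mul_mem_cancel_left (H.inv_mem (x ^ a).2)).1 h1)
    · rw [map_mul]
      change MulAut.conjNormal ((x ^ a : H) : Γ)⁻¹ (MulAut.conjNormal g x) = x
      rw [hgx, ← Subgroup.coe_inv, hconj, inv_inv]
      have h1 : Commute ((x ^ a)⁻¹) x := ((Commute.refl x).pow_left a).inv_left
      rw [h1.eq]
      group
    · rw [ac_mul, hgP]
      have h1 := hPfix _ (hpowP a)
      conv_lhs => rw [← h1]
      rw [← ac_mul, inv_mul_cancel, ac_one]
    · rw [ac_mul, ha, ← ac_mul, inv_mul_cancel, ac_one]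
  have hzx' : ∀ i : ℕ, z * ((x ^ i : H) : Γ) = ((x ^ i : H) : Γ) * z := by
    intro i
    have h1 : MulAut.conjNormal z (x ^ i) = x ^ i := by rw [map_pow, hzx]
    have h2 := congrArg Subtype.val h1
    rw [MulAut.conjNormal_apply] at h2
    exact mul_inv_eq_iff_eq_mul.1 h2
  have hzall : ∀ A : Sylow 5 H, ac z A = A := by
    intro A
    by_cases hA : A = P
    · rw [hA, hzP]
    · obtain ⟨i, hi⟩ := hall A hA
      rw [hi, ← ac_mul, hzx', ac_mul, hzP₂]
  obtain ⟨u, hu⟩ := exists_ac P P₂
  have hz2all : ∀ A : Sylow 5 H, ac ((u : Γ)⁻¹ * z * u) A = A := by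
    intro A
    rw [ac_mul, ac_mul, hzall, ← ac_mul, inv_mul_cancel, ac_one]
  rcases hpm P x hxP hx1 hx5 hxg _ (hz2all P) with h1 | h1
  · -- `z` centralises `x` and `u x u⁻¹`
    have h2 : MulAut.conjNormal z (u * x * u⁻¹) = u * x * u⁻¹ := by
      have h3 : MulAut.conjNormal (u : Γ) (MulAut.conjNormal ((u : Γ)⁻¹ * z * u) x)
          = MulAut.conjNormal (u : Γ) x := by rw [h1]
      have h4 : MulAut.conjNormal (u : Γ) (MulAut.conjNormal ((u : Γ)⁻¹ * z * u) x)
          = MulAut.conjNormal z (MulAut.conjNormal (u : Γ) x) := by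
        rw [← MulAut.mul_apply, ← MulAut.mul_apply, ← map_mul, ← map_mul]
        congr 2
        group
      rw [h4, hconj] at h3
      exact h3
    have h3 : (u * x * u⁻¹) ^ 5 = 1 := by rw [conj_pow, hx5, mul_one, mul_inv_cancel]
    have hz1 : z ≠ 1 := fun h4 => hzH (h4 ▸ H.one_mem)
    have h4 := D.h3 z hz1 x (u * x * u⁻¹) hx5 h3 hzx h2
    have h5 : u * x * u⁻¹ ∈ P := hmemP _ h4.symm
    have h6 : u * x * u⁻¹ ∈ P₂ := by
      rw [← hu, ← hconj, mem_ac]
      exact hxP
    have h7 : u * x * u⁻¹ ≠ 1 := by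
      intro h8
      apply hx1
      have h9 := congrArg (fun t => u⁻¹ * t * u) h8
      simpa [mul_assoc] using h9
    exact hP₂ (eq_of_ac P P₂ (hcard P) h5 h7
      (ac_of_mem P₂ _ (Subgroup.le_normalizer h6))).symm
  · -- `u⁻¹ z u` inverts `x`
    set w := (u : Γ)⁻¹ * z * u with hw
    have h2 : w * (x : Γ) * w⁻¹ = (x : Γ)⁻¹ := by
      have h3 := congrArg Subtype.val h1
      rw [MulAut.conjNormal_apply] at h3
      exact h3
    have h3 : ac (x : Γ)⁻¹ P₂ = ac (x : Γ) P₂ := by
      have hwi : ac w⁻¹ P₂ = P₂ := by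
        apply ac_inj w
        rw [← ac_mul, mul_inv_cancel, ac_one, hz2all]
      rw [← h2, ac_mul, ac_mul, hwi, hz2all]
    have h4 : ac ((x ^ 2 : H) : Γ) P₂ = P₂ := by
      rw [pow_two, Subgroup.coe_mul, ac_mul, ← h3, ← ac_mul, mul_inv_cancel, ac_one]
    exact hP₂ (eq_of_ac P P₂ (hcard P) (hpowP 2) (hxi 2 (by norm_num) (by norm_num)) h4).symm

end abstract

/-- In the reduced situation with socle `PSL_2(11)` and `p = 5`, `r = 11`, the group is simple. -/
theorem eleven_top {Q : Type*} [Group Q] [Finite Q] {N : Subgroup Q} (R : Red 5 Q N 11)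
    (e : N ≃* PS) : N = ⊤ := by
  classical
  have hN := R.normal
  obtain ⟨M, hM, hNM, hidx⟩ := R.ex
  have hsup : N ⊔ M = ⊤ := by
    rw [sup_comm]
    exact hM.2 _ (left_lt_sup.2 hNM)
  have hrel : M.relIndex N = 11 := by rw [← index_eq_relIndex hsup, hidx]
  have hNc : Nat.card N = 660 := by rw [Nat.card_congr e.toEquiv, card_PS]
  have hcard : Nat.card (N.subgroupOf M) = 60 := by
    have h1 : Nat.card (N.subgroupOf M) = Nat.card (M.subgroupOf N) := by
      have h3 := Nat.card_congr (Subgroup.subgroupOfEquivOfLe (inf_le_left : N ⊓ M ≤ N)).toEquiv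
      have h4 := Nat.card_congr (Subgroup.subgroupOfEquivOfLe (inf_le_right : N ⊓ M ≤ M)).toEquiv
      rw [Subgroup.inf_subgroupOf_left] at h3
      rw [Subgroup.inf_subgroupOf_right] at h4
      rw [h3, h4]
    have h2 : Nat.card (M.subgroupOf N) * M.relIndex N = Nat.card N :=
      Subgroup.card_mul_index (M.subgroupOf N)
    rw [hrel, hNc] at h2
    omega
  -- the inclusion and the action
  let ι : (N.subgroupOf M) → N := fun x => ⟨x.1.1, Subgroup.mem_subgroupOf.1 x.2⟩
  have hι : Function.Injective ι := by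
    intro x y h
    apply Subtype.ext
    apply Subtype.ext
    have h1 : ((ι x : N) : Q) = ((ι y : N) : Q) := congrArg Subtype.val h
    exact h1
  have hιm : ∀ x y, ι (x * y) = ι x * ι y := fun x y => rfl
  have hι1 : ι 1 = 1 := rfl
  have hιp : ∀ x (i : ℕ), ι (x ^ i) = ι x ^ i := by
    intro x i
    apply Subtype.ext
    change (((x ^ i : N.subgroupOf M) : M) : Q) = ((ι x ^ i : N) : Q)
    push_cast
    rfl
  let β : Q →* MulAut N := MulAut.conjNormal
  let α : Q → MulAut PS := fun g => (e.symm.trans (β g)).trans e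
  have hα : ∀ g y, α g (e y) = e (β g y) := by
    intro g y
    change e (β g (e.symm (e y))) = _
    rw [e.symm_apply_apply]
  have hιc : ∀ (g : M) (x : N.subgroupOf M), ι (MulAut.conjNormal g x) = β g (ι x) := by
    intro g x
    apply Subtype.ext
    change (((MulAut.conjNormal g x : N.subgroupOf M) : M) : Q) =
      ((MulAut.conjNormal (g : Q) (ι x) : N) : Q)
    rw [MulAut.conjNormal_apply, MulAut.conjNormal_apply]
    rfl
  have hα1 : ∀ g : Q, g ≠ 1 → α g ≠ 1 := by
    intro g hg h
    apply hg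
    have h1 : g ∈ centralizer (N : Set Q) := by
      rw [Subgroup.mem_centralizer_iff]
      intro y hy
      have h2 := hα g ⟨y, hy⟩
      rw [h] at h2
      have h3 : (β g ⟨y, hy⟩ : N) = ⟨y, hy⟩ := (e.injective h2).symm
      have h4 := congrArg Subtype.val h3
      change ((MulAut.conjNormal g ⟨y, hy⟩ : N) : Q) = y at h4
      rw [MulAut.conjNormal_apply] at h4
      exact (mul_inv_eq_iff_eq_mul.1 h4).symm
    rw [R.cent] at h1
    exact Subgroup.mem_bot.1 h1
  have h5 : ∀ x : N.subgroupOf M, x ^ 5 = 1 → e (ι x) ^ 5 = 1 := by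
    intro x hx
    rw [← map_pow, ← hιp, hx, hι1, map_one]
  have h51 : ∀ x : N.subgroupOf M, x ≠ 1 → e (ι x) ≠ 1 := by
    intro x hx h
    apply hx
    apply hι
    apply e.injective
    rw [h, hι1, map_one]
  have D : Hy M (N.subgroupOf M) := by
    refine ⟨hcard, ?_, ?_, ?_⟩
    · intro x n hx hx1 hn
      obtain ⟨i, hi⟩ := mem_zpowers (h5 x hx) (h51 x hx1) (n := e (ι n))
        (by rw [← map_mul, ← map_mul, ← hιm, hn, hιm])
      refine ⟨i, hι (e.injective ?_)⟩
      rw [hi, hιp, map_pow]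
    · intro g x hx hx1 h
      apply not_sq (α g) (h5 x hx) (h51 x hx1)
      rw [hα, ← hιc, h, hιp, map_pow]
    · intro g hg x y hx hy hgx hgy
      have h1 : (g : Q) ≠ 1 := fun h => hg (Subtype.ext h)
      have h2 := commute_of_fixed (hα1 g h1) (h5 x hx) (h5 y hy)
        (by rw [hα, ← hιc, hgx]) (by rw [hα, ← hιc, hgy])
      rw [← map_mul, ← map_mul, ← hιm, ← hιm] at h2
      exact hι (e.injective h2)
  have h1 := eq_top D
  rw [Subgroup.subgroupOf_eq_top] at h1
  rw [← hsup]
  exact (sup_eq_left.2 h1).symm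

end Cfsg.Agent.H579.ElevenRed
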