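import Cfsg.Agent.H579.HCTor
import Cfsg.Agent.H581.HC
import Cfsg.Agent.H248.DichChev

/-!
# No Hall coverings of the orthogonal groups in characteristic two (helper579, for S4388)

* `exists_iso` : a subgroup normalising a nontrivial `2`-subgroup of `Ω(Q)` stabilises a nonzero totally isotropic subspace;
* `hall_transport` : a Hall `σ`-subgroup contains a conjugate of every `r`-group of isometries, `r ∈ σ`;
* `hc_omega_even_plus`, `hc_omega_even_minus`.
-/

set_option autoImplicit false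
set_option linter.unusedSectionVars false
set_option linter.style.haveILetI false

namespace Cfsg.Agent.H579.HCO

open QuadraticMap Cfsg
open Cfsg.Agent.LieClassical.OrthCore Cfsg.Agent.LieClassical.OrthForms
open Cfsg.Agent.LieClassical.OrthCenter
open Cfsg.Agent.H403.Classify Cfsg.Agent.H377 Cfsg.Agent.H581

universe u

variable {ι : Type} [Fintype ι] [DecidableEq ι] {F : Type u} [Field F] [Finite F]

/-- the action of an element of `Ω(Q)` as a linear equivalence -/
def actEquiv (Q : QuadraticForm F (ι → F)) (g : isometryGroup F (⇑Q)) : (ι → F) ≃ₗ[F] (ι → F) where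
  toFun := act Q g
  invFun := act Q g⁻¹
  map_add' := act_add g
  map_smul' := act_smul g
  left_inv := act_inv_act g
  right_inv := act_act_inv g

theorem actEquiv_apply (Q : QuadraticForm F (ι → F)) (g : isometryGroup F (⇑Q)) (x : ι → F) :
    actEquiv Q g x = act Q g x := rfl

/-- an isometry of a space isometric to `Q` as an element of the isometry group -/
theorem exists_isom_elt (Q : QuadraticForm F (ι → F)) (hQ : Nondeg Q) {V : Type*} [AddCommGroup V] [Module F V]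
    {Q' : V → F} (e : (ι → F) ≃ₗ[F] V) (he : ∀ u, Q' (e u) = Q u) {T : Module.End F V} (hT : ∀ v, Q' (T v) = Q' v) :
    ∃ M : isometryGroup F (⇑Q), ∀ x, act Q M x = e.symm (T (e x)) := by
  let φ : Module.End F V ≃ₐ[F] Matrix ι ι F := (e.symm.conjAlgEquiv F).trans LinearMap.toMatrixAlgEquiv'
  have hφ : ∀ (S : Module.End F V) (x : ι → F), (φ S).mulVec x = e.symm (S (e x)) := by
    intro S x
    show (LinearMap.toMatrix' (e.symm.conj S)).mulVec x = _
    rw [LinearMap.toMatrix'_mulVec]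
    rfl
  have hM : ∀ x, Q ((φ T).mulVec x) = Q x := by
    intro x
    rw [← he, ← he, hφ, e.apply_symm_apply, hT]
  have hinj : ∀ x, (φ T).mulVec x = 0 → x = 0 := by
    intro x hx
    apply hQ
    intro y
    have h1 : polar Q ((φ T).mulVec x) ((φ T).mulVec y) = polar Q x y := by
      rw [polar, polar, ← Matrix.mulVec_add, hM, hM, hM]
    rw [← h1, hx]
    simp [polar]
  have hunit : IsUnit (φ T) := by
    rw [← Matrix.mulVec_injective_iff_isUnit]
    intro x y hxy
    have h1 : (φ T).mulVec (x - y) = 0 := by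
      rw [Matrix.mulVec_sub]
      exact sub_eq_zero.2 hxy
    exact sub_eq_zero.1 (hinj _ h1)
  obtain ⟨M, hM'⟩ := hunit
  have hmem : M ∈ isometryGroup F ⇑Q := by
    rw [Cfsg.Agent.LieClassical.OrthFinite.mem_isometryGroup_iff]
    intro x
    rw [hM']
    exact hM x
  refine ⟨⟨M, hmem⟩, fun x => ?_⟩
  rw [act_def, ← hφ, ← hM']

theorem act_pow_eq (Q : QuadraticForm F (ι → F)) {V : Type*} [AddCommGroup V] [Module F V]
    (e : (ι → F) ≃ₗ[F] V) {T : Module.End F V} {z : Omega F (⇑Q)} (hz : ∀ x, act Q z x = e.symm (T (e x))) (j : ℕ)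
    (x : ι → F) : act Q ((z ^ j : Omega F (⇑Q)) : isometryGroup F (⇑Q)) x = e.symm ((T ^ j) (e x)) := by
  induction j generalizing x with
  | zero =>
    rw [pow_zero, pow_zero]
    change act Q 1 x = _
    rw [act_one]
    exact (e.symm_apply_apply x).symm
  | succ j ih =>
    rw [pow_succ, pow_succ]
    change act Q ((z ^ j : Omega F (⇑Q)) * (z : isometryGroup F (⇑Q))) x = _
    rw [act_mul, ih, hz, e.apply_symm_apply]
    rfl

/-- an isometry of odd order lies in `Ω(Q)` -/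
theorem exists_omega_elt (Q : QuadraticForm F (ι → F)) (hQ : Nondeg Q) (h5 : 5 ≤ Fintype.card ι)
    {V : Type*} [AddCommGroup V] [Module F V]
    {Q' : V → F} (e : (ι → F) ≃ₗ[F] V) (he : ∀ u, Q' (e u) = Q u) {T : Module.End F V} (hT : ∀ v, Q' (T v) = Q' v)
    {N : ℕ} (hN : Odd N) (hTN : T ^ N = 1) :
    ∃ z : Omega F (⇑Q), ∀ x, act Q z x = e.symm (T (e x)) := by
  obtain ⟨M, hM⟩ := exists_isom_elt Q hQ e he hT
  obtain ⟨k, hk⟩ := hN
  have hpow : ∀ (j : ℕ) (x : ι → F), act Q (M ^ j) x = e.symm ((T ^ j) (e x)) := by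
    intro j
    induction j with
    | zero =>
      intro x
      rw [pow_zero, pow_zero, act_one]
      exact (e.symm_apply_apply x).symm
    | succ j ih =>
      intro x
      rw [pow_succ, pow_succ, act_mul, ih, hM, e.apply_symm_apply]
      rfl
  refine ⟨⟨M ^ (k + 1) * M ^ (k + 1), mul_self_mem_Omega Q hQ h5 _⟩, fun x => ?_⟩
  change act Q (M ^ (k + 1) * M ^ (k + 1)) x = _
  rw [← pow_add, hpow, show k + 1 + (k + 1) = N + 1 by omega, pow_succ, hTN, one_mul]

/-- **a Hall subgroup contains a conjugate of every `r`-group of isometries** -/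
theorem hall_transport {σ : Set ℕ} (Q : QuadraticForm F (ι → F)) (hQ : Nondeg Q) (h5 : 5 ≤ Fintype.card ι)
    {V : Type*} [AddCommGroup V] [Module F V]
    {Q' : V → F} (e : (ι → F) ≃ₗ[F] V) (he : ∀ u, Q' (e u) = Q u) {A : Type*} [Group A] {r k : ℕ} (hr : r.Prime)
    (hr2 : r ≠ 2) (hrσ : r ∈ σ) (hA : Nat.card A = r ^ k) (ρ : A →* Module.End F V)
    (hρ : ∀ a v, Q' (ρ a v) = Q' v) {H : Subgroup (Omega F (⇑Q))} (hH : IsHallFor σ H) :
    ∃ L : (ι → F) ≃ₗ[F] V, (∀ u, Q' (L u) = Q u) ∧ ∀ (R : Submodule F (ι → F)),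
      (∀ h ∈ H, ∀ v ∈ R, act Q h v ∈ R) → ∀ a, ∀ v ∈ R.map (L : (ι → F) →ₗ[F] V), ρ a v ∈ R.map (L : (ι → F) →ₗ[F] V) := by
  have hpow : ∀ a : A, a ^ (r ^ k) = 1 := fun a => by rw [← hA]; exact pow_card_eq_one'
  have hodd : Odd (r ^ k) := (hr.odd_of_ne_two hr2).pow
  have hex : ∀ a : A, ∃ z : Omega F (⇑Q), ∀ x, act Q z x = e.symm (ρ a (e x)) := fun a =>
    exists_omega_elt Q hQ h5 e he (hρ a) hodd (by rw [← map_pow, hpow, map_one])
  let E : Subgroup (Omega F (⇑Q)) :=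
    { carrier := {z | ∃ a : A, ∀ x, act Q z x = e.symm (ρ a (e x))}
      mul_mem' := by
        rintro z w ⟨a, ha⟩ ⟨b, hb⟩
        refine ⟨a * b, fun x => ?_⟩
        change act Q ((z : isometryGroup F (⇑Q)) * w) x = _
        rw [act_mul, ha, hb, e.apply_symm_apply, map_mul]
        rfl
      one_mem' := ⟨1, fun x => by
        change act Q 1 x = _
        rw [act_one, map_one]
        exact (e.symm_apply_apply x).symm⟩
      inv_mem' := by
        rintro z ⟨a, ha⟩
        refine ⟨a⁻¹, fun x => ?_⟩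
        change act Q (z : isometryGroup F (⇑Q))⁻¹ x = _
        apply act_injective (z : isometryGroup F (⇑Q))
        rw [act_act_inv, ha, e.apply_symm_apply]
        have h1 : ρ a (ρ a⁻¹ (e x)) = e x := by
          rw [← Module.End.mul_apply, ← map_mul, mul_inv_cancel, map_one]
          rfl
        rw [h1, e.symm_apply_apply] }
  have hE : IsPGroup r E := by
    rintro ⟨z, a, ha⟩
    refine ⟨k, ?_⟩
    apply Subtype.ext
    change z ^ r ^ k = 1
    apply Subtype.ext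
    apply act_ext
    intro x
    rw [act_pow_eq Q e ha, ← map_pow, hpow, map_one]
    change _ = act Q 1 x
    rw [act_one]
    exact e.symm_apply_apply x
  obtain ⟨g, hg⟩ := hH.exists_conj_le hr hrσ hE
  refine ⟨(actEquiv Q (g : isometryGroup F (⇑Q))⁻¹).trans e, fun u => ?_, ?_⟩
  · rw [LinearEquiv.trans_apply, he, actEquiv_apply, map_act]
  · rintro R hR a _ ⟨x, hx, rfl⟩
    obtain ⟨z, hz⟩ := hex a
    have hmem : g * z * g⁻¹ ∈ H := hg ⟨z, ⟨a, hz⟩, rfl⟩
    refine ⟨act Q ((g * z * g⁻¹ : Omega F (⇑Q)) : isometryGroup F (⇑Q)) x, hR _ hmem x hx, ?_⟩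
    change e (act Q (g : isometryGroup F (⇑Q))⁻¹ (act Q ((g : isometryGroup F (⇑Q)) * z * (g : isometryGroup F (⇑Q))⁻¹) x)) =
      ρ a (e (act Q (g : isometryGroup F (⇑Q))⁻¹ x))
    rw [act_mul, act_mul, act_inv_act, hz, e.apply_symm_apply]

/-- **a subgroup normalising a nontrivial 2-subgroup stabilises a nonzero totally isotropic subspace** -/
theorem exists_iso (h2 : (2 : F) = 0) (Q : QuadraticForm F (ι → F)) {V H : Subgroup (Omega F (⇑Q))} (hV : V ≠ ⊥)
    (hVp : IsPGroup 2 V) (hVH : V ≤ H) (hH : H ≤ Subgroup.normalizer (V : Set (Omega F (⇑Q)))) :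
    ∃ R : Submodule F (ι → F), R ≠ ⊥ ∧ (∀ h ∈ H, ∀ v ∈ R, act Q h v ∈ R) ∧ ∀ u ∈ R, ∀ v ∈ R, polar Q u v = 0 := by
  haveI : Fact (Nat.Prime 2) := ⟨Nat.prime_two⟩
  let W : Submodule F (ι → F) :=
    { carrier := {x | ∀ z ∈ V, act Q z x = x}
      add_mem' := fun {x y} hx hy z hz => by rw [act_add, hx z hz, hy z hz]
      zero_mem' := fun z _ => act_zero _
      smul_mem' := fun c x hx z hz => by rw [act_smul, hx z hz] }
  let W' : Submodule F (ι → F) :=
    { carrier := {y | ∀ x ∈ W, polar Q x y = 0}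
      add_mem' := fun {x y} hx hy w hw => by rw [polar_add_right, hx w hw, hy w hw, add_zero]
      zero_mem' := fun w _ => by simp [polar]
      smul_mem' := fun c x hx w hw => by rw [polar_smul_right, hx w hw, smul_zero] }
  have hW : ∀ h ∈ H, ∀ v ∈ W, act Q h v ∈ W := by
    intro h hh v hv z hz
    have h1 : h⁻¹ * z * h ∈ V := by
      have h2 := (Subgroup.mem_normalizer_iff.1 (hH (H.inv_mem hh)) z).1 hz
      rwa [inv_inv] at h2
    have h3 := hv _ h1
    have h4 : act Q ((h⁻¹ * z * h : Omega F (⇑Q)) : isometryGroup F (⇑Q)) v =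
        act Q (h : isometryGroup F (⇑Q))⁻¹ (act Q z (act Q h v)) := by
      change act Q ((h : isometryGroup F (⇑Q))⁻¹ * z * (h : isometryGroup F (⇑Q))) v = _
      rw [act_mul, act_mul]
    rw [h4] at h3
    apply act_injective (h : isometryGroup F (⇑Q))⁻¹
    rw [h3, act_inv_act]
  have hW' : ∀ h ∈ H, ∀ v ∈ W', act Q h v ∈ W' := by
    intro h hh v hv x hx
    have h1 : act Q ((h⁻¹ : Omega F (⇑Q)) : isometryGroup F (⇑Q)) x ∈ W := hW _ (H.inv_mem hh) x hx
    have h2 := hv _ h1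
    rw [← polar_act (h : isometryGroup F (⇑Q))] at h2
    change polar Q (act Q (h : isometryGroup F (⇑Q)) (act Q (h : isometryGroup F (⇑Q))⁻¹ x)) _ = 0 at h2
    rwa [act_act_inv] at h2
  -- a nonzero vector in `W'`
  have hne : ∃ y ∈ W', y ≠ 0 := by
    obtain ⟨⟨z, hz⟩, hz1'⟩ := Subgroup.ne_bot_iff_exists_ne_one.1 hV
    have hz1 : z ≠ 1 := fun h => hz1' (Subtype.ext h)
    obtain ⟨x, hx⟩ : ∃ x, act Q z x ≠ x := by
      by_contra hcon
      push Not at hcon
      apply hz1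
      apply Subtype.ext
      apply act_ext
      intro x
      rw [hcon x]
      exact (act_one x).symm
    refine ⟨act Q z x - x, fun w hw => ?_, sub_ne_zero.2 hx⟩
    rw [polar_sub_right]
    nth_rw 1 [← hw z hz]
    rw [polar_act, sub_self]
  obtain ⟨y₀, hy₀, hy₀0⟩ := hne
  -- `V` has a nonzero fixed vector in `W'`
  let act' : MulAction V W' :=
    { smul := fun z y => ⟨act Q ((z : Omega F (⇑Q)) : isometryGroup F (⇑Q)) y, hW' _ (hVH z.2) _ y.2⟩
      one_smul := fun y => Subtype.ext (act_one _)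
      mul_smul := fun z w y => Subtype.ext (act_mul _ _ _) }
  have hcard : 2 ∣ Nat.card W' := by
    have h3 : addOrderOf (⟨y₀, hy₀⟩ : W') = 2 := by
      refine addOrderOf_eq_prime ?_ ?_
      · apply Subtype.ext
        change (2 : ℕ) • y₀ = 0
        rw [← Nat.cast_smul_eq_nsmul F, Nat.cast_ofNat, h2, zero_smul]
      · intro h
        exact hy₀0 (congrArg Subtype.val h)
    rw [← h3]
    exact addOrderOf_dvd_natCard _
  obtain ⟨b, hb, hb0⟩ := hVp.exists_fixed_point_of_prime_dvd_card_of_fixed_point W' hcard (a := 0) (by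
    intro z
    exact Subtype.ext (act_zero _))
  refine ⟨W ⊓ W', ?_, ?_, ?_⟩
  · intro h
    apply hb0
    apply Subtype.ext
    have h3 : (b : ι → F) ∈ W ⊓ W' := by
      refine ⟨fun z hz => ?_, b.2⟩
      exact congrArg Subtype.val (hb ⟨z, hz⟩)
    rw [h, Submodule.mem_bot] at h3
    exact h3.symm
  · exact fun h hh v hv => ⟨hW h hh v hv.1, hW' h hh v hv.2⟩
  · exact fun u hu v hv => hv.2 u hu.1

/-- a proper subgroup of odd index normalises a nontrivial `2`-subgroup of itself -/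
theorem exists_core {G : Type*} [Group G] [Finite G] (hD : Cfsg.Agent.H248.Ovg.Dich 2 G) {H : Subgroup G}
    (hidx : ¬ 2 ∣ H.index) (hne : H ≠ ⊤) :
    ∃ V : Subgroup G, V ≠ ⊥ ∧ IsPGroup 2 V ∧ V ≤ H ∧ H ≤ Subgroup.normalizer (V : Set G) := by
  haveI : Fact (Nat.Prime 2) := ⟨Nat.prime_two⟩
  have h1 : pCore 2 ↥H ≠ ⊥ := fun h => hne (hD.eq_top H h hidx)
  refine ⟨(pCore 2 ↥H).map H.subtype, ?_, (Lib.Cores.pCore_isPGroup 2).map _, Subgroup.map_subtype_le _, ?_⟩
  · intro h2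
    exact h1 ((Subgroup.map_eq_bot_iff_of_injective _ H.subtype_injective).1 h2)
  · intro g hg
    rw [Subgroup.mem_normalizer_iff]
    intro x
    constructor
    · rintro ⟨y, hy, rfl⟩
      refine ⟨⟨g, hg⟩ * y * ⟨g, hg⟩⁻¹, (Lib.Cores.pCore_normal 2).conj_mem _ hy _, rfl⟩
    · rintro ⟨y, hy, e⟩
      refine ⟨⟨g, hg⟩⁻¹ * y * ⟨g, hg⟩, ?_, ?_⟩
      · have := (Lib.Cores.pCore_normal (G := ↥H) 2).conj_mem _ hy (⟨g, hg⟩⁻¹)
        rwa [inv_inv] at this
      · change g⁻¹ * (y : G) * g = x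
        have e' : (y : G) = g * x * g⁻¹ := e
        rw [e']
        group

theorem omega_equiv (h2 : (2 : F) = 0) (Q : QuadraticForm F (ι → F)) (hQ : Nondeg Q) (h5 : 5 ≤ Fintype.card ι) :
    Nonempty (POmega F (⇑Q) ≃* Omega F (⇑Q)) := by
  have hs : ∃ u : ι → F, u ≠ 0 ∧ Q u = 0 := by
    obtain ⟨w, -, h1, h2⟩ := Cfsg.Agent.LieClassical.OrthFinite.exists_sing_mem (Q := Q) (⊤ : Submodule F (ι → F)) (by
      rw [finrank_top, Module.finrank_fintype_fun_eq_card]
      omega)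
    exact ⟨w, h1, h2⟩
  have hbot : Subgroup.center (Omega F (⇑Q)) = ⊥ := by
    rw [eq_bot_iff]
    intro z hz
    rw [mem_center_omega_iff (nondegenerate_of_nondeg hQ) (by omega) hs] at hz
    have hneg : (-1 : Matrix ι ι F) = 1 := by
      ext i j
      rw [Matrix.neg_apply]
      linear_combination (-(1 : Matrix ι ι F) i j) * h2
    rw [hneg, or_self] at hz
    rw [Subgroup.mem_bot]
    apply Subtype.ext
    apply Subtype.ext
    exact Units.ext hz
  exact ⟨(QuotientGroup.quotientMulEquivOfEq hbot).trans QuotientGroup.quotientBot⟩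

/-- the subspace stabilised by a proper subgroup of odd index -/
theorem exists_iso_of_hall (h2 : (2 : F) = 0) (Q : QuadraticForm F (ι → F))
    (hD : Cfsg.Agent.H248.Ovg.Dich 2 (Omega F (⇑Q))) {σ : Set ℕ} (hc : HC (Omega F ⇑Q) σ)
    {H : Subgroup (Omega F (⇑Q))} (hH : IsHallFor σ H) :
    ∃ R : Submodule F (ι → F), R ≠ ⊥ ∧ (∀ h ∈ H, ∀ v ∈ R, act Q h v ∈ R) ∧ ∀ u ∈ R, ∀ v ∈ R, polar Q u v = 0 := by
  obtain ⟨V, h3, h4, h5, h6⟩ := exists_core hD (hc.even_card hH) (hc.ne_top hH)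
  exact exists_iso h2 Q h3 h4 h5 h6

/-- elements of `PΩ` from `Elt2` -/
theorem exists_pomega {Q : QuadraticForm F (ι → F)} (hQ : Nondeg Q) (h5 : 5 ≤ Fintype.card ι)
    {m : ℕ} {ε : ℤ}
    (iso : ∀ Q' : QuadraticForm F (Fin (2 * m) → F), Nondeg Q' → HasSign (⇑Q') m ε →
      ∃ e : (ι → F) ≃ₗ[F] (Fin (2 * m) → F), ∀ u, Q' (e u) = Q u) {N : ℕ} (h : Elt2 F m ε N) :
    ∃ g : POmega F ⇑Q, orderOf g = N := by
  obtain ⟨Q', g, hQ', hs, hg, ho⟩ := h
  obtain ⟨e, he⟩ := iso Q' hQ' hs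
  exact exists_of_isom Q hQ h5 (⇑Q') e 1 one_ne_zero (fun u => by rw [he, one_mul]) g hg N ho

/-- the dimension of an invariant totally isotropic subspace -/
theorem finrank_le_of_tor {Q : QuadraticForm F (ι → F)} (hQ : Nondeg Q) (h5 : 5 ≤ Fintype.card ι)
    {m : ℕ} {ε : ℤ}
    (iso : ∀ Q' : QuadraticForm F (Fin (2 * m) → F), Nondeg Q' → HasSign (⇑Q') m ε →
      ∃ e : (ι → F) ≃ₗ[F] (Fin (2 * m) → F), ∀ u, Q' (e u) = Q u) {r d : ℕ} (hr : r.Prime) (hr2 : r ≠ 2)
    {σ : Set ℕ} (hrσ : r ∈ σ) (ht : Tor F r m ε d) {H : Subgroup (Omega F (⇑Q))} (hH : IsHallFor σ H)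
    {R : Submodule F (ι → F)} (h1 : ∀ h ∈ H, ∀ v ∈ R, act Q h v ∈ R) (h2 : ∀ u ∈ R, ∀ v ∈ R, polar Q u v = 0) :
    Module.finrank F R ≤ d := by
  obtain ⟨Q', A, iA, ρ, k, hA, hQ', hs, hg, hR⟩ := ht
  obtain ⟨e, he⟩ := iso Q' hQ' hs
  obtain ⟨L, hL, hL'⟩ := hall_transport Q hQ h5 e he hr hr2 hrσ hA ρ hg hH
  have h3 := hR (R.map (L : (ι → F) →ₗ[F] (Fin (2 * m) → F))) (hL' R h1) (by
    rintro _ ⟨u, hu, rfl⟩ _ ⟨v, hv, rfl⟩
    have h4 := h2 u hu v hv
    change Q' (L u + L v) - Q' (L u) - Q' (L v) = 0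
    rw [← map_add, hL, hL, hL]
    exact h4)
  rwa [LinearEquiv.finrank_map_eq] at h3

/-- **no Hall coverings of the orthogonal groups in characteristic two**, uniform version -/
theorem main_even (h2 : (2 : F) = 0) (Q : QuadraticForm F (ι → F)) (hQ : Nondeg Q) (h5 : 5 ≤ Fintype.card ι)
    {m : ℕ} (hm : 4 ≤ m) {ε : ℤ} (hε : ε = 1 ∨ ε = -1)
    (iso : ∀ Q' : QuadraticForm F (Fin (2 * m) → F), Nondeg Q' → HasSign (⇑Q') m ε →
      ∃ e : (ι → F) ≃ₗ[F] (Fin (2 * m) → F), ∀ u, Q' (e u) = Q u)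
    (hD : Cfsg.Agent.H248.Ovg.Dich 2 (Omega F (⇑Q))) {σ : Set ℕ} (hc : HC (POmega F ⇑Q) σ) : False := by
  haveI : Fact (Nat.Prime 2) := ⟨Nat.prime_two⟩
  have hq1 : 1 < Nat.card F := Finite.one_lt_card
  obtain ⟨E⟩ := omega_equiv h2 Q hQ h5
  have hcO : HC (Omega F ⇑Q) σ := hc.congr E
  -- the prime `r`
  have hodd := odd_card_add_one (F := F) h2
  obtain ⟨r, hr, hrd⟩ := Nat.exists_prime_and_dvd (n := Nat.card F + 1) (by omega)
  have hr2 : r ≠ 2 := by
    rintro rfl
    rw [← Nat.not_even_iff_odd] at hodd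
    exact hodd (even_iff_two_dvd.2 hrd)
  have hrodd : Odd r := hr.odd_of_ne_two hr2
  have hε' : (-ε) = 1 ∨ (-ε) = -1 := by omega
  obtain ⟨y, hy⟩ := exists_pomega hQ h5 iso (N := Nat.lcm r (4 / 2)) (by
    have := (elt_ell (F := F) hrd).prod_two le_rfl hrodd (elt_four (F := F) (n := m - 1) (by omega) hε') (by decide)
    rwa [show 1 + (m - 1) = m by omega, show (-1 : ℤ) * -ε = ε by ring] at this)
  have hrσ : r ∈ σ := hc.iso y 2 r Nat.prime_two hr (by rw [hy]; exact Nat.dvd_lcm_right _ _)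
    (by rw [hy]; exact Nat.dvd_lcm_left _ _) hc.two
  have heven : 2 ∣ Nat.card (Omega F ⇑Q) := by
    rw [← Nat.card_congr E.toEquiv]
    exact dvd_trans (by rw [hy]; exact Nat.dvd_lcm_right _ _) (orderOf_dvd_natCard y)
  have hcase : (-1 : ℤ) ^ m = ε ∨ (-1 : ℤ) ^ (m - 1) = ε := by
    obtain ⟨k, rfl⟩ : ∃ k, m = k + 1 := ⟨m - 1, by omega⟩
    rw [Nat.add_sub_cancel, pow_succ]
    rcases neg_one_pow_eq_or ℤ k with h | h <;> rw [h] <;> omega
  rcases hcase with hcase | hcase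
  · obtain ⟨H, hH⟩ := hcO.exists_hall heven
    obtain ⟨R, hR, h3, h4⟩ := exists_iso_of_hall h2 Q hD hcO hH
    have ht : Tor F r m ε 0 := hcase ▸ tor_pow h2 hrd hr.one_lt (by omega)
    have h6 := finrank_le_of_tor hQ h5 iso hr hr2 hrσ ht hH h3 h4
    rw [Nat.le_zero, Submodule.finrank_eq_zero] at h6
    exact hR h6
  · -- the prime `t`
    obtain ⟨t, ht, htd⟩ := Nat.exists_prime_and_dvd (n := Nat.card F ^ 2 + 1) (by
      have : 0 < Nat.card F ^ 2 := by positivity
      omega)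
    have hqe : Even (Nat.card F) := by
      rw [Nat.odd_add_one, Nat.not_odd_iff_even] at hodd
      exact hodd
    have ht2 : t ≠ 2 := by
      rintro rfl
      have h6 : Even (Nat.card F ^ 2) := hqe.pow_of_ne_zero (by norm_num)
      have h7 := h6.add_one
      rw [← Nat.not_even_iff_odd] at h7
      exact h7 (even_iff_two_dvd.2 htd)
    have hfpf : Fpf F m ε (Nat.lcm t r) := by
      have := (fpf_four (F := F) h2 htd ht.one_lt).prod (fpf_pow (F := F) h2 hrd hr.one_lt (k := m - 2) (by omega))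
      rwa [show 2 + (m - 2) = m by omega, ← pow_succ', show m - 2 + 1 = m - 1 by omega, hcase] at this
    obtain ⟨hN0, Q', g, hQ', hs, hg, ho, hf⟩ := hfpf
    obtain ⟨e, he⟩ := iso Q' hQ' hs
    have hNodd : Odd (Nat.lcm t r) :=
      Odd.of_dvd_nat ((ht.odd_of_ne_two ht2).mul hrodd) (Nat.lcm_dvd_mul t r)
    have hgN : g ^ (Nat.lcm t r) = 1 := by rw [← ho]; exact pow_orderOf_eq_one g
    obtain ⟨z, hz⟩ := exists_omega_elt Q hQ h5 e he hg hNodd hgN
    have hrz : r ∣ orderOf z := by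
      refine (Nat.dvd_lcm_right t r).trans ?_
      rw [← ho]
      apply orderOf_dvd_of_pow_eq_one
      refine LinearMap.ext fun v => ?_
      have h6 := act_pow_eq Q e hz (orderOf z) (e.symm v)
      rw [pow_orderOf_eq_one, e.apply_symm_apply] at h6
      change act Q 1 _ = _ at h6
      rw [act_one] at h6
      exact (e.symm.injective h6).symm
    obtain ⟨H, hzH, hH⟩ := hcO.cov z r hr hrz hrσ
    obtain ⟨R, hR, h3, h4⟩ := exists_iso_of_hall h2 Q hD hcO hH
    have htor : Tor F r m ε 1 := by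
      have := tor_pow_hyp (F := F) h2 hrd hr.one_lt (k := m - 1) (by omega)
      rwa [show m - 1 + 1 = m by omega, hcase] at this
    have h6 := finrank_le_of_tor hQ h5 iso hr hr2 hrσ htor hH h3 h4
    have h7 : Module.finrank F R = 1 := by
      have : Module.finrank F R ≠ 0 := fun h => hR (Submodule.finrank_eq_zero.1 h)
      omega
    obtain ⟨v, hv, hv0⟩ := (Submodule.ne_bot_iff R).1 hR
    obtain ⟨c, hc'⟩ := (finrank_eq_one_iff_of_nonzero' (⟨v, hv⟩ : R) (fun h => hv0 (congrArg Subtype.val h))).1 h7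
      ⟨act Q z v, h3 z hzH v hv⟩
    have hc1 : c • v = act Q z v := congrArg Subtype.val hc'
    have hgw : g (e v) = c • e v := by
      rw [← map_smul, hc1, hz, e.apply_symm_apply]
    have hpow : ∀ j : ℕ, (g ^ j) (e v) = c ^ j • e v := by
      intro j
      induction j with
      | zero => rw [pow_zero, pow_zero, one_smul]; rfl
      | succ j ih => rw [pow_succ', pow_succ, Module.End.mul_apply, ih, map_smul, hgw, smul_smul]
    have hev0 : e v ≠ 0 := fun h => hv0 ((LinearEquiv.map_eq_zero_iff _).1 h)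
    have hcN : c ^ (Nat.lcm t r) = 1 := by
      have h8 := hpow (Nat.lcm t r)
      rw [hgN] at h8
      have h9 : (c ^ (Nat.lcm t r) - 1) • e v = 0 := by
        rw [sub_smul, one_smul, ← h8]
        exact sub_self _
      exact sub_eq_zero.1 ((smul_eq_zero.1 h9).resolve_right hev0)
    have hc0 : c ≠ 0 := by
      rintro rfl
      rw [zero_pow hN0.ne'] at hcN
      exact zero_ne_one hcN
    have hcq : c ^ (Nat.card F - 1) = 1 := by
      letI := Fintype.ofFinite F
      rw [Nat.card_eq_fintype_card]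
      exact FiniteField.pow_card_sub_one_eq_one c hc0
    have hcop : (Nat.lcm t r).Coprime (Nat.card F - 1) := by
      rw [Nat.coprime_iff_gcd_eq_one]
      by_contra hne
      obtain ⟨s, hs1, hs2⟩ := Nat.exists_prime_and_dvd hne
      have hs3 : s ∣ t * r := (hs2.trans (Nat.gcd_dvd_left _ _)).trans (Nat.lcm_dvd_mul t r)
      have hs4 : s ∣ Nat.card F - 1 := hs2.trans (Nat.gcd_dvd_right _ _)
      have hs5 : s ≠ 2 := by
        rintro rfl
        obtain ⟨a, ha⟩ := hqe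
        obtain ⟨b, hb⟩ := hs4
        omega
      apply hs5
      rcases (Nat.Prime.dvd_mul hs1).1 hs3 with h8 | h8
      · have h9 : s ∣ Nat.card F ^ 2 + 1 := h8.trans htd
        have h10 : s ∣ Nat.card F ^ 2 - 1 := hs4.trans (by
          have := Nat.sub_dvd_pow_sub_pow (Nat.card F) 1 2
          rwa [one_pow] at this)
        have h11 := Nat.dvd_sub h9 h10
        rw [show Nat.card F ^ 2 + 1 - (Nat.card F ^ 2 - 1) = 2 by
          have : 0 < Nat.card F ^ 2 := by positivity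
          omega] at h11
        exact (Nat.prime_dvd_prime_iff_eq hs1 Nat.prime_two).1 h11
      · have h11 := Nat.dvd_sub (h8.trans hrd) hs4
        rw [show Nat.card F + 1 - (Nat.card F - 1) = 2 by omega] at h11
        exact (Nat.prime_dvd_prime_iff_eq hs1 Nat.prime_two).1 h11
    have hc2 : c = 1 := by
      have h8 := Nat.dvd_gcd (orderOf_dvd_of_pow_eq_one hcN) (orderOf_dvd_of_pow_eq_one hcq)
      rw [hcop, Nat.dvd_one, orderOf_eq_one_iff] at h8
      exact h8
    rw [hc2, one_smul] at hgw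
    exact hev0 (hf _ hgw)

end Cfsg.Agent.H579.HCO

namespace Cfsg.Agent.H579

open QuadraticMap Cfsg
open Cfsg.Agent.LieClassical.OrthForms
open Cfsg.Agent.H377 Cfsg.Agent.H581 Cfsg.Agent.H579.HCO

theorem hc_omega_even_plus {F : Type} [Field F] [Finite F] [CharP F 2] {m : ℕ} (hm : 4 ≤ m) {σ : Set ℕ}
    (hc : HC (POmega F (quadFormPlus m F)) σ) : False := by
  haveI : Fact (Nat.Prime 2) := ⟨Nat.prime_two⟩
  letI := Fintype.ofFinite F
  have h2 : (2 : F) = 0 := by exact_mod_cast CharP.cast_eq_zero F 2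
  have h5 : 5 ≤ Fintype.card (Fin m ⊕ Fin m) := by
    rw [Fintype.card_sum, Fintype.card_fin]
    omega
  have hD : Cfsg.Agent.H248.Ovg.Dich 2 (POmega F (quadFormPlus m F)) :=
    Cfsg.Agent.H248.Ovg.dich_of_chev (Or.inl (Or.inr (Or.inr (Or.inr (Or.inr (Or.inl
      ⟨F, inferInstance, inferInstance, inferInstance, m, hm, ⟨MulEquiv.refl _⟩⟩))))))
  rw [← coe_plusForm] at hc hD
  obtain ⟨E⟩ := omega_equiv h2 (plusForm m F) (nondeg_plusForm m F) h5
  refine main_even h2 (plusForm m F) (nondeg_plusForm m F) h5 hm (Or.inl rfl) ?_ (hD.of_equiv E) hc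
  intro Q' hQ' hs
  obtain ⟨e, he⟩ := exists_plus (by omega) (by rw [Module.finrank_fin_fun]) Q' hQ' hs
  exact ⟨e, fun u => by rw [he, coe_plusForm]⟩

theorem hc_omega_even_minus {F : Type} [Field F] [Finite F] [CharP F 2] {m : ℕ} (hm : 4 ≤ m) {a b : F}
    (hab : ∀ z₁ z₂ : F, z₁ ^ 2 + a * z₁ * z₂ + b * z₂ ^ 2 = 0 → z₁ = 0 ∧ z₂ = 0) {σ : Set ℕ}
    (hc : HC (POmega F (quadFormMinus (m - 1) F a b)) σ) : False := by
  haveI : Fact (Nat.Prime 2) := ⟨Nat.prime_two⟩
  letI := Fintype.ofFinite F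
  have h2 : (2 : F) = 0 := by exact_mod_cast CharP.cast_eq_zero F 2
  have h5 : 5 ≤ Fintype.card ((Fin (m - 1) ⊕ Fin (m - 1)) ⊕ Fin 2) := by
    simp only [Fintype.card_sum, Fintype.card_fin]
    omega
  have hD : Cfsg.Agent.H248.Ovg.Dich 2 (POmega F (quadFormMinus (m - 1) F a b)) :=
    Cfsg.Agent.H248.Ovg.dich_of_chev (Or.inl (Or.inr (Or.inr (Or.inr (Or.inr (Or.inr (Or.inl
      ⟨F, inferInstance, inferInstance, inferInstance, m, a, b, hm, hab, ⟨MulEquiv.refl _⟩⟩)))))))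
  rw [← coe_minusForm] at hc hD
  have hQ := nondeg_minusForm (m - 1) F a b hab
  obtain ⟨E⟩ := omega_equiv h2 (minusForm (m - 1) F a b) hQ h5
  refine main_even h2 (minusForm (m - 1) F a b) hQ h5 hm (Or.inr rfl) ?_ (hD.of_equiv E) hc
  intro Q' hQ' hs
  obtain ⟨e, he⟩ := exists_minus (by omega) (by rw [Module.finrank_fin_fun]) Q' hQ' hs hab
  exact ⟨e, fun u => by rw [he, coe_minusForm]⟩

/-- no Hall coverings of the even dimensional orthogonal groups in characteristic two -/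
theorem hc_omega_even {S : Type*} [Group S] {σ : Set ℕ} (hc : HC S σ)
    (h : IsPOmegaPlusChar 2 S ∨ IsPOmegaMinusChar 2 S) : False := by
  rcases h with ⟨F, i1, i2, i3, m, hm, ⟨e⟩⟩ | ⟨F, i1, i2, i3, m, a, b, hm, hab, ⟨e⟩⟩
  · exact hc_omega_even_plus hm (hc.congr e)
  · exact hc_omega_even_minus hm hab (hc.congr e)

end Cfsg.Agent.H579
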