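import Cfsg.Agent.H377.ToOmega

/-!
# Isometries and tori of quadratic spaces in characteristic two, for the Hall coverings of S4388 (helper579)

* `Fpf F n ε N` : a nondegenerate form of type `ε` in dimension `2n` with an isometry of order `N` without nonzero fixed
  vector; `fpf_ell`, `Fpf.prod`, `Fpf.res`, `fpf_pow`, `fpf_four`;
* `Tor F r n ε d` : a nondegenerate form of type `ε` in dimension `2n` with an `r`-group of isometries all of whose
  invariant totally isotropic subspaces have dimension at most `d`; `tor_pow`, `tor_pow_hyp`.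
-/

set_option autoImplicit false
set_option linter.unusedSectionVars false
set_option linter.style.haveILetI false

namespace Cfsg.Agent.H579.HCO

open QuadraticMap
open Cfsg.Agent.LieClassical.OrthCore Cfsg.Agent.LieClassical.OrthForms
open Cfsg.Agent.H403.Classify Cfsg.Agent.H377

universe u

section Fpf

/-- an isometry of order `N` without nonzero fixed vector, type `ε`, dimension `2n` -/
def Fpf (F : Type*) [Field F] [Finite F] (n : ℕ) (ε : ℤ) (N : ℕ) : Prop :=
  0 < N ∧ ∃ (Q : QuadraticForm F (Fin (2 * n) → F)) (g : Module.End F (Fin (2 * n) → F)),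
    Nondeg Q ∧ HasSign (⇑Q) n ε ∧ (∀ v, Q (g v) = Q v) ∧ orderOf g = N ∧ ∀ v, g v = v → v = 0

variable {F : Type*} [Field F] [Finite F]

theorem Fpf.of {V : Type*} [AddCommGroup V] [Module F V] [Finite V] {Q : QuadraticForm F V} {g : Module.End F V}
    {n : ℕ} (hn : Module.finrank F V = 2 * n)
    (hQ : Nondeg Q) {ε : ℤ} (hs : HasSign (⇑Q) n ε) (hg : ∀ v, Q (g v) = Q v) {N : ℕ} (hN : 0 < N)
    (ho : orderOf g = N) (hf : ∀ v, g v = v → v = 0) : Fpf F n ε N := by
  have : Module.Finite F V := Module.Finite.of_finite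
  let e : V ≃ₗ[F] (Fin (2 * n) → F) := (Module.finBasisOfFinrankEq F V hn).equivFun
  refine ⟨hN, Q.comp (e.symm : _ →ₗ[F] V), e.conj g, ?_, ?_, ?_, ?_, ?_⟩
  · intro x hx
    have h1 : e.symm x = 0 := by
      apply hQ
      intro y
      have := hx (e y)
      change Q (e.symm (x + e y)) - Q (e.symm x) - Q (e.symm (e y)) = 0 at this
      rw [map_add, LinearEquiv.symm_apply_apply] at this
      exact this
    exact (LinearEquiv.map_eq_zero_iff _).1 h1
  · refine hs.congr e.toEquiv fun v => ?_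
    change Q (e.symm (e v)) = Q v
    rw [LinearEquiv.symm_apply_apply]
  · intro v
    change Q (e.symm (e (g (e.symm v)))) = Q (e.symm v)
    rw [LinearEquiv.symm_apply_apply, hg]
  · rw [← ho, orderOf_eq_orderOf_iff]
    intro k
    have h2 : (e.conj g) ^ k = e.conj (g ^ k) := by
      change (LinearEquiv.conjRingEquiv e g) ^ k = LinearEquiv.conjRingEquiv e (g ^ k)
      rw [map_pow]
    rw [h2]
    constructor
    · intro h
      apply e.conj.injective
      rw [h]
      exact (LinearEquiv.conjRingEquiv e).map_one.symm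
    · intro h
      rw [h]
      exact (LinearEquiv.conjRingEquiv e).map_one
  · intro v hv
    have h1 : e (g (e.symm v)) = v := hv
    have h2 : g (e.symm v) = e.symm v := by
      apply e.injective
      rw [h1, LinearEquiv.apply_symm_apply]
    exact (LinearEquiv.map_eq_zero_iff _).1 (hf _ h2)

theorem Fpf.prod {n n' : ℕ} {ε ε' : ℤ} {N N' : ℕ} (h : Fpf F n ε N) (h' : Fpf F n' ε' N') :
    Fpf F (n + n') (ε * ε') (Nat.lcm N N') := by
  obtain ⟨hN, Q, g, hQ, hs, hg, ho, hf⟩ := h
  obtain ⟨hN', Q', g', hQ', hs', hg', ho', hf'⟩ := h'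
  refine Fpf.of (V := (Fin (2 * n) → F) × (Fin (2 * n') → F))
    (Q := sumQ Q Q') (g := g.prodMap g')
    ?_ (sumQ_nondeg hQ hQ') (hs.prod hs') ?_ (Nat.lcm_pos hN hN') ?_ ?_
  · rw [Module.finrank_prod, Module.finrank_fin_fun, Module.finrank_fin_fun]
    ring
  · intro v
    rw [sumQ_apply, sumQ_apply, LinearMap.prodMap_apply, hg, hg']
  · rw [orderOf_prodMap, ho, ho']
  · intro v hv
    rw [LinearMap.prodMap_apply] at hv
    exact Prod.ext (hf _ (congrArg Prod.fst hv)) (hf' _ (congrArg Prod.snd hv))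

/-- Restriction of scalars. -/
theorem Fpf.res {K : Type*} [Field K] [Finite K] [Algebra F K] {n : ℕ} {ε : ℤ} {N : ℕ} (h : Fpf K n ε N) :
    Fpf F (Module.finrank F K * n) ε N := by
  obtain ⟨hN, Q, g, hQ, hs, hg, ho, hf⟩ := h
  have : Module.Finite F K := Module.Finite.of_finite
  let Q' : QuadraticForm F (Fin (2 * n) → K) := (Algebra.trace F K).compQuadraticMap' Q
  have hQ' : ∀ v, Q' v = Algebra.trace F K (Q v) := fun v => rfl
  refine Fpf.of (V := Fin (2 * n) → K) (Q := Q') (g := g.restrictScalars F) ?_ ?_ ?_ ?_ hN ?_ ?_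
  · rw [Module.finrank_pi_fintype, Finset.sum_const, Finset.card_univ, Fintype.card_fin, smul_eq_mul]
    ring
  · intro x hx
    apply hQ
    intro y
    have h1 : ∀ c : K, Algebra.trace F K (c * polar Q x y) = 0 := by
      intro c
      have h2 := hx (c • y)
      simp only [polar, hQ'] at h2
      rw [← map_sub, ← map_sub] at h2
      have h3 : polar Q x (c • y) = c * polar Q x y := by
        rw [polar_smul_right, smul_eq_mul]
      rw [← h3]
      exact h2
    by_contra hne
    obtain ⟨t, ht⟩ := Algebra.trace_surjective F K 1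
    have h5 := h1 (t * (polar Q x y)⁻¹)
    rw [mul_assoc, inv_mul_cancel₀ hne, mul_one, ht] at h5
    exact one_ne_zero h5
  · exact hs.res
  · intro v
    rw [hQ', hQ']
    congr 1
    exact hg v
  · rw [orderOf_restrictScalars, ho]
  · intro v hv
    exact hf v hv

/-- a form of minus type on a plane is anisotropic -/
theorem aniso_of_sign {V : Type*} [AddCommGroup V] [Module F V] [Finite V] (hV : Module.finrank F V = 2)
    {Q : QuadraticForm F V} (hQ : Nondeg Q) (hs : HasSign (⇑Q) 1 (-1)) {v : V} (hv : Q v = 0) : v = 0 := by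
  obtain ⟨a, b, hab⟩ := exists_aniso F
  obtain ⟨e, he⟩ := exists_minus (F := F) (m := 1) le_rfl hV Q hQ hs hab
  obtain ⟨u, rfl⟩ := e.surjective v
  rw [he, quadFormMinus_apply] at hv
  have h1 : (u (.inr 0)) ^ 2 + a * u (.inr 0) * u (.inr 1) + b * (u (.inr 1)) ^ 2 = 0 := by
    simpa using hv
  obtain ⟨h2, h3⟩ := hab _ _ h1
  have h4 : u = 0 := by
    funext i
    rcases i with (i | i) | i
    · exact i.elim0
    · exact i.elim0
    · fin_cases i
      · exact h2
      · exact h3
  rw [h4, map_zero]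

/-- in characteristic two, an isometry of odd order of a plane that fixes a nonzero vector is the identity -/
theorem eq_one_of_fix (h2 : (2 : F) = 0) {V : Type*} [AddCommGroup V] [Module F V] [Finite V]
    (hV : Module.finrank F V = 2) {Q : QuadraticForm F V} (hQ : Nondeg Q) {g : Module.End F V}
    (hg : ∀ v, Q (g v) = Q v) {N : ℕ} (hN : Odd N) (ho : g ^ N = 1) {v : V} (hv0 : v ≠ 0) (hv : g v = v) : g = 1 := by
  have : Module.Finite F V := Module.Finite.of_finite
  have hpol : ∀ x y, polar Q (g x) (g y) = polar Q x y := by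
    intro x y
    simp only [polar, ← map_add, hg]
  let f : V →ₗ[F] F := polarBilin Q v
  have hf : ∀ w, f w = polar Q v w := fun w => rfl
  have hf0 : f ≠ 0 := by
    intro h
    apply hv0
    apply hQ
    intro y
    rw [← hf, h]
    rfl
  have hsurj : Function.Surjective f := LinearMap.surjective hf0
  have hker : Module.finrank F (LinearMap.ker f) = 1 := by
    have h3 := f.finrank_range_add_finrank_ker
    rw [LinearMap.range_eq_top.2 hsurj, finrank_top, Module.finrank_self, hV] at h3
    omega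
  have hvk : v ∈ LinearMap.ker f := by
    rw [LinearMap.mem_ker, hf, H377.polar_self', h2, zero_mul]
  have hspan : ∀ u, f u = 0 → ∃ c : F, c • v = u := by
    intro u hu
    have h3 := (finrank_eq_one_iff_of_nonzero' (⟨v, hvk⟩ : LinearMap.ker f)
      (fun h => hv0 (congrArg Subtype.val h))).1 hker ⟨u, LinearMap.mem_ker.2 hu⟩
    obtain ⟨c, hc⟩ := h3
    exact ⟨c, congrArg Subtype.val hc⟩
  refine LinearMap.ext fun w => ?_
  obtain ⟨c, hc⟩ := hspan (g w - w) (by
    rw [map_sub, hf, hf]
    nth_rw 1 [← hv]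
    rw [hpol, sub_self])
  have hgw : g w = w + c • v := by rw [hc]; abel
  have hpow : ∀ k : ℕ, (g ^ k) w = w + ((k : F) * c) • v := by
    intro k
    induction k with
    | zero => simp
    | succ k ih =>
      rw [pow_succ', Module.End.mul_apply, ih, map_add, map_smul, hv, hgw]
      push_cast
      rw [add_mul, one_mul, add_smul]
      abel
  have h4 := hpow N
  rw [ho] at h4
  have hN1 : (N : F) = 1 := by
    obtain ⟨k, rfl⟩ := hN
    push_cast
    rw [h2]
    ring
  rw [hN1, one_mul] at h4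
  have h5 : c • v = 0 := by
    have h6 : w = w + c • v := h4
    exact (add_eq_left.1 h6.symm)
  rw [hgw, h5, add_zero]
  rfl

theorem odd_card_add_one (h2 : (2 : F) = 0) : Odd (Nat.card F + 1) := by
  haveI := charTwo_of h2
  have h3 : Even (Nat.card F) := by
    letI := Fintype.ofFinite F
    rw [Nat.card_eq_fintype_card]
    exact (FiniteField.even_card_iff_char_two.1 (by rw [ringChar.eq F 2]))  |> fun h => by
      rw [Nat.even_iff]; exact h
  exact h3.add_one

/-- The elliptic plane. -/
theorem fpf_ell (h2 : (2 : F) = 0) {N : ℕ} (hN : N ∣ Nat.card F + 1) (h1 : 1 < N) : Fpf F 1 (-1) N := by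
  obtain ⟨hN0, Q, g, hQ, hs, hg, ho⟩ := elt_ell (F := F) hN
  refine ⟨hN0, Q, g, hQ, hs, hg, ho, fun v hv => ?_⟩
  by_contra hv0
  have h3 := eq_one_of_fix h2 (by rw [Module.finrank_fin_fun]) hQ hg (Odd.of_dvd_nat (odd_card_add_one h2) hN)
    (by rw [← ho]; exact pow_orderOf_eq_one g) hv0 hv
  rw [h3, orderOf_one] at ho
  omega

theorem fpf_pow (h2 : (2 : F) = 0) {N : ℕ} (hN : N ∣ Nat.card F + 1) (h1 : 1 < N) {k : ℕ} (hk : 1 ≤ k) :
    Fpf F k ((-1) ^ k) N := by
  induction k, hk using Nat.le_induction with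
  | base => rw [pow_one]; exact fpf_ell h2 hN h1
  | succ k hk ih =>
    have := ih.prod (fpf_ell h2 hN h1)
    rwa [Nat.lcm_self, ← pow_succ] at this

theorem fpf_four (h2 : (2 : F) = 0) {N : ℕ} (hN : N ∣ Nat.card F ^ 2 + 1) (h1 : 1 < N) : Fpf F 2 (-1) N := by
  haveI := charTwo_of h2
  haveI : Fact (Nat.Prime 2) := ⟨Nat.prime_two⟩
  have h3 : (2 : FiniteField.Extension F 2 2) = 0 := by
    have := map_ofNat (algebraMap F (FiniteField.Extension F 2 2)) 2
    rw [← this, h2, map_zero]
  have h := Fpf.res (F := F) (fpf_ell (F := FiniteField.Extension F 2 2) h3 (N := N) (by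
    rwa [FiniteField.natCard_extension]) h1)
  rwa [FiniteField.finrank_extension, mul_one] at h

end Fpf

section Tor

/-- a nondegenerate form of type `ε` in dimension `2n` with an `r`-group of isometries all of whose invariant totally
isotropic subspaces have dimension at most `d` -/
def Tor (F : Type u) [Field F] [Finite F] (r n : ℕ) (ε : ℤ) (d : ℕ) : Prop :=
  ∃ (Q : QuadraticForm F (Fin (2 * n) → F)) (A : Type u) (_ : Group A) (ρ : A →* Module.End F (Fin (2 * n) → F))
    (k : ℕ), Nat.card A = r ^ k ∧ Nondeg Q ∧ HasSign (⇑Q) n ε ∧ (∀ a v, Q (ρ a v) = Q v) ∧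
    ∀ R : Submodule F (Fin (2 * n) → F), (∀ a, ∀ v ∈ R, ρ a v ∈ R) → (∀ u ∈ R, ∀ v ∈ R, polar Q u v = 0) →
      Module.finrank F R ≤ d

variable {F : Type u} [Field F] [Finite F]

theorem Tor.of {V : Type*} [AddCommGroup V] [Module F V] [Finite V] {Q : QuadraticForm F V} {A : Type u} [Group A]
    {ρ : A →* Module.End F V} {n : ℕ} (hn : Module.finrank F V = 2 * n) {r k : ℕ} (hA : Nat.card A = r ^ k)
    (hQ : Nondeg Q) {ε : ℤ} (hs : HasSign (⇑Q) n ε) (hg : ∀ a v, Q (ρ a v) = Q v) {d : ℕ}
    (hR : ∀ R : Submodule F V, (∀ a, ∀ v ∈ R, ρ a v ∈ R) → (∀ u ∈ R, ∀ v ∈ R, polar Q u v = 0) →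
      Module.finrank F R ≤ d) : Tor F r n ε d := by
  have : Module.Finite F V := Module.Finite.of_finite
  let e : V ≃ₗ[F] (Fin (2 * n) → F) := (Module.finBasisOfFinrankEq F V hn).equivFun
  refine ⟨Q.comp (e.symm : _ →ₗ[F] V), A, inferInstance,
    ((LinearEquiv.conjRingEquiv e).toMonoidHom).comp ρ, k, hA, ?_, ?_, ?_, ?_⟩
  · intro x hx
    have h1 : e.symm x = 0 := by
      apply hQ
      intro y
      have := hx (e y)
      change Q (e.symm (x + e y)) - Q (e.symm x) - Q (e.symm (e y)) = 0 at this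
      rw [map_add, LinearEquiv.symm_apply_apply] at this
      exact this
    exact (LinearEquiv.map_eq_zero_iff _).1 h1
  · refine hs.congr e.toEquiv fun v => ?_
    change Q (e.symm (e v)) = Q v
    rw [LinearEquiv.symm_apply_apply]
  · intro a v
    change Q (e.symm (e (ρ a (e.symm v)))) = Q (e.symm v)
    rw [LinearEquiv.symm_apply_apply, hg]
  · intro R h1 h2
    have h3 := hR (R.map (e.symm : _ →ₗ[F] V)) ?_ ?_
    · rwa [LinearEquiv.finrank_map_eq] at h3
    · rintro a _ ⟨v, hv, rfl⟩
      have h4 : e (ρ a (e.symm v)) ∈ R := h1 a v hv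
      exact ⟨_, h4, by simp⟩
    · rintro _ ⟨u, hu, rfl⟩ _ ⟨v, hv, rfl⟩
      have h4 := h2 u hu v hv
      change Q (e.symm (u + v)) - Q (e.symm u) - Q (e.symm v) = 0 at h4
      rw [map_add] at h4
      exact h4

theorem Tor.prod (h2 : (2 : F) = 0) {r n n' : ℕ} {ε ε' : ℤ} {d : ℕ} (h : Tor F r n ε 0) (h' : Tor F r n' ε' d) :
    Tor F r (n + n') (ε * ε') d := by
  obtain ⟨Q, A, iA, ρ, k, hA, hQ, hs, hg, hR⟩ := h
  obtain ⟨Q', A', iA', ρ', k', hA', hQ', hs', hg', hR'⟩ := h'
  let ρ'' : A × A' →* Module.End F ((Fin (2 * n) → F) × (Fin (2 * n') → F)) :=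
    ((LinearMap.prodMapRingHom F (Fin (2 * n) → F) (Fin (2 * n') → F)).toMonoidHom).comp (ρ.prodMap ρ')
  have hρ : ∀ a v, ρ'' a v = (ρ a.1 v.1, ρ' a.2 v.2) := fun a v => rfl
  refine Tor.of (V := (Fin (2 * n) → F) × (Fin (2 * n') → F)) (Q := sumQ Q Q') (A := A × A') (ρ := ρ'')
    (k := k + k') ?_ ?_ (sumQ_nondeg hQ hQ') (hs.prod hs') ?_ ?_
  · rw [Module.finrank_prod, Module.finrank_fin_fun, Module.finrank_fin_fun]
    ring
  · rw [Nat.card_prod, hA, hA', pow_add]
  · intro a v
    rw [sumQ_apply, sumQ_apply, hρ, hg, hg']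
  · intro R h3 h4
    have hpol : ∀ u v : (Fin (2 * n) → F) × (Fin (2 * n') → F),
        polar (⇑(sumQ Q Q')) u v = polar Q u.1 v.1 + polar Q' u.2 v.2 := by
      intro u v
      simp only [polar, sumQ_apply, Prod.fst_add, Prod.snd_add]
      ring
    let R₁ : Submodule F (Fin (2 * n) → F) := R.comap (LinearMap.inl F _ _)
    have hR₁ : R₁ = ⊥ := by
      rw [← Submodule.finrank_eq_zero (R := F), ← Nat.le_zero]
      refine hR R₁ ?_ ?_
      · intro a v hv
        have h5 := h3 (a, 1) _ hv
        rw [hρ] at h5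
        change (ρ a v, ρ' 1 (0 : Fin (2 * n') → F)) ∈ R at h5
        rw [map_zero] at h5
        exact h5
      · intro u hu v hv
        have h5 := h4 _ hu _ hv
        rw [hpol] at h5
        simpa using h5
    have hfst : ∀ p ∈ R, p.1 = 0 := by
      intro p hp
      have hfix : ∀ a, ρ a p.1 = p.1 := by
        intro a
        have h5 := R.sub_mem (h3 (a, 1) _ hp) hp
        rw [hρ] at h5
        have h6 : ρ a p.1 - p.1 ∈ R₁ := by
          change ((ρ a p.1 - p.1, (0 : Fin (2 * n') → F)) : _ × _) ∈ R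
          have h7 : ((ρ a p.1, ρ' 1 p.2) - p : _ × _) = (ρ a p.1 - p.1, (0 : Fin (2 * n') → F)) := by
            refine Prod.ext rfl ?_
            rw [map_one]
            exact sub_self _
          rw [← h7]
          exact h5
        rw [hR₁, Submodule.mem_bot] at h6
        exact sub_eq_zero.1 h6
      have h8 : Module.finrank F (Submodule.span F {p.1}) ≤ 0 := by
        refine hR _ ?_ ?_
        · intro a v hv
          obtain ⟨c, rfl⟩ := Submodule.mem_span_singleton.1 hv
          rw [map_smul, hfix]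
          exact hv
        · intro u hu v hv
          obtain ⟨c, rfl⟩ := Submodule.mem_span_singleton.1 hu
          obtain ⟨c', rfl⟩ := Submodule.mem_span_singleton.1 hv
          rw [polar_smul_left, polar_smul_right, H377.polar_self', h2]
          simp
      rw [Nat.le_zero, Submodule.finrank_eq_zero, Submodule.span_singleton_eq_bot] at h8
      exact h8
    let R₂ : Submodule F (Fin (2 * n') → F) := R.comap (LinearMap.inr F _ _)
    have hR₂ : R = R₂.map (LinearMap.inr F (Fin (2 * n) → F) _) := by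
      ext p
      constructor
      · intro hp
        refine ⟨p.2, ?_, ?_⟩
        · change ((0 : Fin (2 * n) → F), p.2) ∈ R
          rw [← hfst p hp]
          exact hp
        · rw [LinearMap.inr_apply, ← hfst p hp]
      · rintro ⟨w, hw, rfl⟩
        exact hw
    rw [hR₂, ← (Submodule.equivMapOfInjective _ LinearMap.inr_injective R₂).finrank_eq]
    refine hR' R₂ ?_ ?_
    · intro a v hv
      have h5 := h3 (1, a) _ hv
      rw [hρ] at h5
      change (ρ 1 (0 : Fin (2 * n) → F), ρ' a v) ∈ R at h5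
      rw [map_zero] at h5
      exact h5
    · intro u hu v hv
      have h5 := h4 _ hu _ hv
      rw [hpol] at h5
      simpa using h5

theorem tor_ell (h2 : (2 : F) = 0) {r : ℕ} (hr : r ∣ Nat.card F + 1) (h1 : 1 < r) : Tor F r 1 (-1) 0 := by
  obtain ⟨hN0, Q, g, hQ, hs, hg, ho, hf⟩ := fpf_ell h2 hr h1
  have hgr : g ^ r = 1 := by rw [← ho]; exact pow_orderOf_eq_one g
  let gu : (Module.End F (Fin (2 * 1) → F))ˣ := Units.ofPowEqOne g r hgr (by omega)
  have hgu : (gu : Module.End F (Fin (2 * 1) → F)) = g := rfl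
  have hgur : gu ^ r = 1 := by
    ext1
    rw [Units.val_pow_eq_pow_val, hgu, hgr]
    rfl
  have hou : orderOf gu = r := by
    rw [← orderOf_units, hgu, ho]
  refine ⟨Q, ↥(Subgroup.zpowers gu), inferInstance, (Units.coeHom _).comp (Subgroup.subtype _), 1, ?_, hQ, hs,
    ?_, ?_⟩
  · rw [Nat.card_zpowers, hou, pow_one]
  · rintro ⟨a, ha⟩ v
    have hfin : IsOfFinOrder gu := isOfFinOrder_iff_pow_eq_one.2 ⟨r, by omega, hgur⟩
    obtain ⟨k, rfl⟩ := hfin.mem_powers_iff_mem_zpowers.2 ha
    exact isom_pow hg k v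
  · intro R h3 h4
    rw [Nat.le_zero, Submodule.finrank_eq_zero, eq_bot_iff]
    intro v hv
    have h5 : g v ∈ R := h3 ⟨gu, Subgroup.mem_zpowers gu⟩ v hv
    have h6 := h4 _ h5 v hv
    have h7 : Q (g v - v) = 0 := by
      have h8 : g v - v = g v + v := by
        have : (2 : F) • v = 0 := by rw [h2, zero_smul]
        rw [two_smul] at this
        have h9 : -v = v := neg_eq_of_add_eq_zero_left this
        rw [sub_eq_add_neg, h9]
      rw [h8]
      rw [polar, hg] at h6
      linear_combination h6 + (Q v) * h2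
    have h8 := aniso_of_sign (by rw [Module.finrank_fin_fun]) hQ hs h7
    rw [Submodule.mem_bot]
    exact hf v (sub_eq_zero.1 h8)

theorem tor_hyp (r : ℕ) : Tor F r 1 1 1 := by
  refine Tor.of (V := F × F) (Q := hypQ F) (A := PUnit.{u+1}) (ρ := 1) (k := 0) (by simp) (by simp)
    hypQ_nondeg hasSign_mul (fun a v => rfl) ?_
  intro R _ h4
  by_contra hlt
  push Not at hlt
  have h5 : R = ⊤ := by
    apply Submodule.eq_top_of_finrank_eq
    have h6 := Submodule.finrank_le R
    have h7 : Module.finrank F (F × F) = 2 := by simp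
    omega
  have h8 : ((1, 0) : F × F) = 0 := by
    apply hypQ_nondeg
    intro y
    exact h4 _ (h5 ▸ Submodule.mem_top) _ (h5 ▸ Submodule.mem_top)
  exact one_ne_zero (congrArg Prod.fst h8)

theorem tor_pow (h2 : (2 : F) = 0) {r : ℕ} (hr : r ∣ Nat.card F + 1) (h1 : 1 < r) {k : ℕ} (hk : 1 ≤ k) :
    Tor F r k ((-1) ^ k) 0 := by
  induction k, hk using Nat.le_induction with
  | base => rw [pow_one]; exact tor_ell h2 hr h1
  | succ k hk ih =>
    have := ih.prod h2 (tor_ell h2 hr h1)
    rwa [← pow_succ] at this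

theorem tor_pow_hyp (h2 : (2 : F) = 0) {r : ℕ} (hr : r ∣ Nat.card F + 1) (h1 : 1 < r) {k : ℕ} (hk : 1 ≤ k) :
    Tor F r (k + 1) ((-1) ^ k) 1 := by
  have := (tor_pow h2 hr h1 hk).prod h2 (tor_hyp r)
  rwa [mul_one] at this

end Tor

end Cfsg.Agent.H579.HCO
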