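/-
The concrete groups used for the order type example.
-/
import Cfsg.Agent.H579.OTMods
import Cfsg.Agent.H579.OTHeis

set_option autoImplicit false
set_option synthInstance.maxSize 2000

namespace Cfsg.Agent.H579.OTGroups

open Cfsg.Agent.H579.OTFrame Cfsg.Agent.H579.OTMods Cfsg.Agent.H579.OTHeis

/-- The right hand side of the counting formula. -/
def S {P : Type} [Group P] [Fintype P] [DecidableEq P] (L : List (PMod P)) (n : ℕ) : ℕ :=
  ∑ g : P, if g ^ n = 1 then (L.map fun M => M.F g n).prod else 0

abbrev P2 : Type := Multiplicative (ZMod 2)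
abbrev P3 : Type := Multiplicative (ZMod 3)
abbrev P30 : Type := Multiplicative (ZMod 30)
abbrev P22 : Type := Multiplicative (ZMod 2 × ZMod 2)
abbrev P33 : Type := Multiplicative (ZMod 3 × ZMod 3)

def l2 (g : P2) : ℕ := (Multiplicative.toAdd g).val
def l3 (g : P3) : ℕ := (Multiplicative.toAdd g).val
def l30 (g : P30) : ℕ := (Multiplicative.toAdd g).val
def l22 (a b : ZMod 2) (g : P22) : ℕ :=
  (a * (Multiplicative.toAdd g).1 + b * (Multiplicative.toAdd g).2).val
def l33 (a b : ZMod 3) (g : P33) : ℕ :=
  (a * (Multiplicative.toAdd g).1 + b * (Multiplicative.toAdd g).2).val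
def l27 (a b : ZMod 3) (g : E27) : ℕ := (a * g.a + b * g.b).val

-- modules for `P2`
def m2_3 : PMod P2 := b23.toPMod l2 (by decide) (by decide)
def m2_5 : PMod P2 := b25.toPMod l2 (by decide) (by decide)
-- modules for `P3`
def m3_2 : PMod P3 := b32.toPMod l3 (by decide) (by decide)
def m3_5 : PMod P3 := b35.toPMod l3 (by decide) (by decide)
-- modules for `P30`
def m30_23 : PMod P30 := b23.toPMod l30 (by decide +kernel) (by decide)
def m30_25 : PMod P30 := b25.toPMod l30 (by decide +kernel) (by decide)
def m30_32 : PMod P30 := b32.toPMod l30 (by decide +kernel) (by decide)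
def m30_152 : PMod P30 := b152.toPMod l30 (by decide +kernel) (by decide)
def m30_103 : PMod P30 := b103.toPMod l30 (by decide +kernel) (by decide)
-- modules for `P22`
def m22_3 (a b : ZMod 2) : PMod P22 := b23.toPMod (l22 a b) (by revert a b; decide +kernel)
  (by revert a b; decide +kernel)
def m22_5 (a b : ZMod 2) : PMod P22 := b25.toPMod (l22 a b) (by revert a b; decide +kernel)
  (by revert a b; decide +kernel)
-- modules for `P33`
def m33_2 (a b : ZMod 3) : PMod P33 := b32.toPMod (l33 a b) (by revert a b; decide +kernel)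
  (by revert a b; decide +kernel)
def m33_5 (a b : ZMod 3) : PMod P33 := b35.toPMod (l33 a b) (by revert a b; decide +kernel)
  (by revert a b; decide +kernel)
-- modules for `E27`
def m27_2 (a b : ZMod 3) : PMod E27 := b32.toPMod (l27 a b) (by revert a b; decide +kernel)
  (by revert a b; decide +kernel)
def m27_5 (a b : ZMod 3) : PMod E27 := b35.toPMod (l27 a b) (by revert a b; decide +kernel)
  (by revert a b; decide +kernel)

end Cfsg.Agent.H579.OTGroups
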