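/-
A solvable and a nonsolvable finite group of the same order type.
-/
import Cfsg.Agent.H579.OTGroups

set_option autoImplicit false
set_option synthInstance.maxSize 2000

namespace Cfsg.Agent.H579.OTFinal

open Cfsg.Agent.H579.OTFrame Cfsg.Agent.H579.OTMods Cfsg.Agent.H579.OTHeis
open Cfsg.Agent.H579.OTGroups

/-- A finite solvable group with a formula for the counts. -/
structure GD : Type 1 where
  carrier : Type
  [grp : Group carrier]
  [fin : Finite carrier]
  c : ℕ → ℕ
  hc : ∀ n, cnt carrier n = c n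
  hs : Group.IsSolvable carrier

attribute [instance] GD.grp GD.fin

/-- The group built from a list of modules. -/
def GD.of {P : Type} [Group P] [Fintype P] [DecidableEq P] [Group.IsSolvable P]
    (L : List (PMod P)) : GD where
  carrier := (OTFrame.mk L).carrier
  c := S L
  hc := cnt_mk L
  hs := isSolvable_mk L

theorem cnt_punit (n : ℕ) : cnt PUnit.{1} n = 1 := by
  unfold cnt
  rw [Nat.card_eq_one_iff_unique]
  exact ⟨inferInstance, ⟨⟨PUnit.unit, rfl⟩⟩⟩

/-- The trivial group. -/
def GD.one : GD where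
  carrier := PUnit.{1}
  c := fun _ => 1
  hc := cnt_punit
  hs := inferInstance

/-- The product. -/
def GD.mul (A B : GD) : GD where
  carrier := A.carrier × B.carrier
  c := fun n => A.c n * B.c n
  hc := fun n => by rw [cnt_prod, A.hc, B.hc]
  hs := by
    have h1 := A.hs
    have h2 := B.hs
    infer_instance

/-- The powers. -/
def GD.pow (A : GD) : ℕ → GD
  | 0 => GD.one
  | n + 1 => A.mul (A.pow n)

/-- The product of a list of powers. -/
def GD.prod (L : List (GD × ℕ)) : GD := L.foldr (fun x B => (x.1.pow x.2).mul B) GD.one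

theorem GD.c_pow (A : GD) (k n : ℕ) : (A.pow k).c n = A.c n ^ k := by
  induction k with
  | zero => rfl
  | succ k ih =>
    change A.c n * (A.pow k).c n = _
    rw [ih, pow_succ']

theorem GD.c_prod (L : List (GD × ℕ)) (n : ℕ) :
    (GD.prod L).c n = (L.map fun x => x.1.c n ^ x.2).prod := by
  induction L with
  | nil => rfl
  | cons x L ih =>
    change (x.1.pow x.2).c n * (GD.prod L).c n = _
    rw [ih, GD.c_pow, List.map_cons, List.prod_cons]

/-- The factors on the side of `A₅`. -/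
def listL : List (GD × ℕ) :=
  [(GD.of [m3_2], 7),
   (GD.of [m3_2, m3_2, m3_2], 2),
   (GD.of [m2_3, m2_5, m2_5], 2),
   (GD.of [m30_32, m30_32, m30_152, m30_23, m30_25], 2),
   (GD.of [m33_2 1 1, m33_2 1 1, m33_2 1 2, m33_2 1 2, m33_2 1 2, m33_2 1 2, m33_5 1 0,
      m33_5 1 1], 2),
   (GD.of [m22_3 0 1, m22_3 0 1, m22_3 1 0, m22_3 1 0, m22_3 1 1, m22_3 1 1, m22_3 1 1,
      m22_3 1 1], 2),
   (GD.of [modW, m27_2 1 2], 2),
   (GD.of [modW, m27_5 1 2], 4)]

/-- The factors of the solvable group. -/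
def listR : List (GD × ℕ) :=
  [(GD.of [m3_5], 4),
   (GD.of [m3_2, m3_2], 2),
   (GD.of [m2_3, m2_3], 2),
   (GD.of [m3_2, m3_2, m3_2, m3_2], 6),
   (GD.of [m3_2, m3_2, m3_2, m3_5], 2),
   (GD.of [m33_2 1 0, m33_2 1 1, m33_2 1 2], 2),
   (GD.of [m30_23, m30_103, m30_25], 2),
   (GD.of [m22_3 1 0, m22_3 1 1, m22_5 0 1, m22_5 1 1, m22_5 1 1], 2),
   (GD.of [modW, m27_2 1 0, m27_2 1 2], 1),
   (GD.of [modW, m27_2 1 2, m27_5 1 2], 2),
   (GD.of ([] : List (PMod P2)), 4),
   (GD.of ([] : List (PMod P3)), 8)]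

/-- The counts of `A₅`. -/
def cA5 (n : ℕ) : ℕ :=
  if n = 1 then 1 else if n = 2 then 16 else if n = 3 then 21 else if n = 5 then 25
  else if n = 6 then 36 else if n = 10 then 40 else if n = 15 then 45 else 60

/-- The relevant exponents. -/
def exps : List ℕ := [0, 1, 2, 3, 5, 6, 10, 15, 30]

theorem cnt_A5 : ∀ n ∈ exps, cnt (alternatingGroup (Fin 5)) n = cA5 n := by
  have key : ∀ n ∈ exps, Fintype.card {g : alternatingGroup (Fin 5) // g ^ n = 1} = cA5 n := by
    decide +kernel
  intro n hn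
  rw [← key n hn, ← Nat.card_eq_fintype_card]
  rfl

theorem numeric : ∀ n ∈ exps, cA5 n ^ 2 * (listL.map fun x => x.1.c n ^ x.2).prod =
    (listR.map fun x => x.1.c n ^ x.2).prod := by
  decide +kernel

theorem numeric30 : (listR.map fun x => x.1.c 0 ^ x.2).prod =
    (listR.map fun x => x.1.c 30 ^ x.2).prod := by
  decide +kernel

end Cfsg.Agent.H579.OTFinal
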