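/-
Finite `p`-solvable groups in which every maximal subgroup has a normal `p`-complement or has
prime index: there is a normal series of type `(p', p, p', p)`.
-/
import Cfsg.Prelude.Def_Local
import Cfsg.Agent.SolvableStructure.Schmidt
import Cfsg.Agent.SolvableStructure.Supersolvable
import Cfsg.Agent.SolvableStructure.HuppertPrimeIndex

set_option autoImplicit false

namespace Cfsg.Agent.H579.PNilMax

open Subgroup

/-- Membership in a normal subgroup of order prime to `p` and `p`-power index is decided by the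
order of the element. -/
theorem mem_iff_not_dvd_orderOf {M : Type*} [Group M] [Finite M] {p : ℕ} (hp : p.Prime)
    {K : Subgroup M} [K.Normal] (hK : ¬ p ∣ Nat.card K) {k : ℕ} (hk : K.index = p ^ k) (x : M) :
    x ∈ K ↔ ¬ p ∣ orderOf x := by
  constructor
  · intro hx hd
    exact hK (hd.trans (by
      have := orderOf_dvd_natCard (⟨x, hx⟩ : K)
      rwa [Subgroup.orderOf_mk] at this))
  · intro hx
    have h1 : x ^ p ^ k ∈ K := by
      rw [← hk]
      exact Subgroup.pow_index_mem K x
    have h2 : (p ^ k).Coprime (orderOf x) :=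
      Nat.Coprime.pow_left k ((Nat.Prime.coprime_iff_not_dvd hp).2 hx)
    obtain ⟨m, hm⟩ := exists_pow_eq_self_of_coprime h2
    rw [← hm]
    exact K.pow_mem h1 m

/-- The `p'`-part of a normal subgroup `N` contained in a subgroup `M` with a normal
`p`-complement is normal. -/
theorem normal_inf_map {G : Type*} [Group G] [Finite G] {p : ℕ} (hp : p.Prime)
    {M : Subgroup G} {K : Subgroup M} [K.Normal] (hK : ¬ p ∣ Nat.card K) {k : ℕ}
    (hk : K.index = p ^ k) {N : Subgroup G} [hN : N.Normal] (hNM : N ≤ M) :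
    (N ⊓ K.map M.subtype).Normal := by
  have key : ∀ x : G, x ∈ N ⊓ K.map M.subtype ↔ x ∈ N ∧ ¬ p ∣ orderOf x := by
    intro x
    constructor
    · rintro ⟨hx, y, hy, rfl⟩
      refine ⟨hx, ?_⟩
      have := (mem_iff_not_dvd_orderOf hp hK hk y).1 hy
      simpa using this
    · rintro ⟨hx, hx'⟩
      refine ⟨hx, ⟨x, hNM hx⟩, ?_, rfl⟩
      exact (mem_iff_not_dvd_orderOf hp hK hk _).2 (by simpa using hx')
  constructor
  intro x hx g
  rw [key] at hx ⊢
  refine ⟨hN.conj_mem x hx.1 g, ?_⟩
  have : orderOf (g * x * g⁻¹) = orderOf x := by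
    have := orderOf_injective (MulAut.conj g).toMonoidHom (MulAut.conj g).injective x
    simpa using this
  rw [this]
  exact hx.2

theorem relIndex_inf_map {G : Type*} [Group G] [Finite G] {p : ℕ} (hp : p.Prime)
    {M : Subgroup G} {K : Subgroup M} [K.Normal] {k : ℕ}
    (hk : K.index = p ^ k) {N : Subgroup G} [hN : N.Normal] (hNM : N ≤ M) :
    ∃ m : ℕ, (N ⊓ K.map M.subtype).relIndex N = p ^ m := by
  have h1 : (N ⊓ K.map M.subtype).relIndex N = (K.map M.subtype).relIndex N :=
    Subgroup.inf_relIndex_left _ _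
  have h2 : (K.map M.subtype).relIndex N ∣ (K.map M.subtype).relIndex M := by
    have hn : ((K.map M.subtype).subgroupOf M).Normal := by
      rw [Subgroup.subgroupOf, Subgroup.comap_map_eq_self_of_injective M.subtype_injective]
      infer_instance
    have : (K.map M.subtype).relIndex N =
        ((K.map M.subtype).subgroupOf M).relIndex (N.subgroupOf M) := by
      rw [Subgroup.relIndex_subgroupOf hNM]
    rw [this]
    exact Subgroup.relIndex_dvd_index_of_normal _ _
  have h3 : (K.map M.subtype).relIndex M = K.index := by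
    rw [Subgroup.relIndex, Subgroup.subgroupOf,
      Subgroup.comap_map_eq_self_of_injective M.subtype_injective]
  rw [h1]
  rw [h3, hk] at h2
  obtain ⟨m, -, hm⟩ := (Nat.dvd_prime_pow hp).1 h2
  exact ⟨m, hm⟩

theorem card_inf_map {G : Type*} [Group G] [Finite G] {p : ℕ}
    {M : Subgroup G} {K : Subgroup M} (hK : ¬ p ∣ Nat.card K) (N : Subgroup G) :
    ¬ p ∣ Nat.card (N ⊓ K.map M.subtype : Subgroup G) := by
  intro h
  apply hK
  have h1 : Nat.card (N ⊓ K.map M.subtype : Subgroup G) ∣ Nat.card (K.map M.subtype) :=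
    Subgroup.card_dvd_of_le inf_le_right
  rw [Subgroup.card_map_of_injective M.subtype_injective] at h1
  exact h.trans h1

/-- The conclusion: a normal series of type `(p', p, p', p)`. -/
def HasSeries (p : ℕ) (G : Type*) [Group G] : Prop :=
  ∃ A B C : Subgroup G, A.Normal ∧ B.Normal ∧ C.Normal ∧ A ≤ B ∧ B ≤ C ∧ ¬ p ∣ Nat.card A ∧
      (∃ k : ℕ, A.relIndex B = p ^ k) ∧ ¬ p ∣ B.relIndex C ∧ ∃ k : ℕ, C.index = p ^ k

/-- A proper subgroup of a `p`-solvable group which is normal is properly contained in a normal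
subgroup such that the index is a `p`-power or prime to `p`, and which is not inside `M`. -/
theorem exists_step {G : Type*} [Group G] [Finite G] {p : ℕ} (hp : p.Prime)
    (hG : Cfsg.IsPSolvable p G) {M : Subgroup G} (hM : M ≠ ⊤) :
    ∃ V : Subgroup G, V.Normal ∧ M.normalCore ≤ V ∧ ¬ V ≤ M ∧
      ((∃ m : ℕ, M.normalCore.relIndex V = p ^ m) ∨ ¬ p ∣ M.normalCore.relIndex V) := by
  obtain ⟨n, H, h0, hl, hmono, hnor, hstep⟩ := hG
  set N := M.normalCore with hN
  have hNtop : ¬ H (Fin.last n) ≤ N := by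
    rw [hl]
    intro h
    exact hM (top_le_iff.1 (h.trans (Subgroup.normalCore_le M)))
  -- the least index with `H i ≰ N`
  classical
  have hex : ∃ i : ℕ, ∃ hi : i < n + 1, ¬ H ⟨i, hi⟩ ≤ N := ⟨n, Nat.lt_succ_self n, hNtop⟩
  let i := Nat.find hex
  obtain ⟨hi, hiN⟩ := Nat.find_spec hex
  have hi0 : i ≠ 0 := by
    intro h
    apply hiN
    have : (⟨Nat.find hex, hi⟩ : Fin (n + 1)) = 0 := Fin.ext h
    rw [this, h0]
    exact bot_le
  obtain ⟨j, hj⟩ : ∃ j, i = j + 1 := Nat.exists_eq_succ_of_ne_zero hi0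
  have hjn : j < n := by omega
  have hjN : H ⟨j, by omega⟩ ≤ N := by
    by_contra hcon
    exact Nat.find_min hex (m := j) (by omega) ⟨by omega, hcon⟩
  have hH1 : ¬ H (⟨j, hjn⟩ : Fin n).succ ≤ N := by
    have : (⟨j, hjn⟩ : Fin n).succ = ⟨i, hi⟩ := Fin.ext (by simp [hj])
    rw [this]
    exact hiN
  have hH0 : H (⟨j, hjn⟩ : Fin n).castSucc ≤ N := hjN
  have hNn : N.Normal := Subgroup.normalCore_normal M
  set W := H (⟨j, hjn⟩ : Fin n).succ with hW
  set U := H (⟨j, hjn⟩ : Fin n).castSucc with hU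
  have hWn : W.Normal := hnor _
  have hUW : U ≤ W := hmono (by simp [Fin.le_def])
  refine ⟨N ⊔ W, Subgroup.sup_normal N W, le_sup_left, ?_, ?_⟩
  · intro hle
    apply hH1
    have : W ≤ M := le_sup_right.trans hle
    exact Subgroup.normal_le_normalCore.2 this
  · have hd : N.relIndex (N ⊔ W) ∣ U.relIndex W := by
      rw [Subgroup.relIndex_sup_left]
      have : N.relIndex W = (N ⊓ W).relIndex W := (Subgroup.inf_relIndex_right N W).symm
      rw [this]
      exact Dvd.intro_left _ (Subgroup.relIndex_mul_relIndex U (N ⊓ W) W (le_inf hH0 hUW)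
        inf_le_right)
    rcases hstep ⟨j, hjn⟩ with ⟨m, hm⟩ | hc
    · left
      rw [← hU, ← hW] at hm
      rw [hm] at hd
      obtain ⟨m', -, hm'⟩ := (Nat.dvd_prime_pow hp).1 hd
      exact ⟨m', hm'⟩
    · right
      intro hpd
      have h1 : p ∣ U.relIndex W := hpd.trans hd
      have h2 := Nat.Coprime.symm hc
      exact (Nat.Prime.coprime_iff_not_dvd hp).1 h2 h1

theorem hasSeries_of_maximal {G : Type*} [Group G] [Finite G] {p : ℕ} (hp : p.Prime)
    (hG : Cfsg.IsPSolvable p G) {M : Subgroup G} (hM : IsCoatom M) {K : Subgroup M}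
    [hKn : K.Normal] (hK : ¬ p ∣ Nat.card K) {k : ℕ} (hk : K.index = p ^ k) : HasSeries p G := by
  obtain ⟨V, hV, hNV, hVM, hstep⟩ := exists_step hp hG hM.1
  set N := M.normalCore with hN
  have hNM : N ≤ M := Subgroup.normalCore_le M
  have hNn : N.Normal := Subgroup.normalCore_normal M
  have hsup : M ⊔ V = ⊤ := hM.2 _ (left_lt_sup.2 hVM)
  set K' := K.map M.subtype with hK'
  have hK'card : Nat.card K' = Nat.card K :=
    Subgroup.card_map_of_injective M.subtype_injective
  set π := QuotientGroup.mk' V with hπ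
  have hker : π.ker = V := QuotientGroup.ker_mk' _
  set f : M →* G ⧸ V := π.comp M.subtype with hf
  have hfs : Function.Surjective f := by
    rw [← MonoidHom.range_eq_top, hf, MonoidHom.range_comp, Subgroup.range_subtype]
    have h1 : (M ⊔ V).map π = ⊤ := by
      rw [hsup, Subgroup.map_top_of_surjective _ (QuotientGroup.mk'_surjective V)]
    have h2 : V.map π = ⊥ := by
      rw [Subgroup.map_eq_bot_iff, hker]
    rwa [Subgroup.map_sup, h2, sup_bot_eq] at h1
  have hmapK : K'.map π = K.map f := by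
    rw [hK', Subgroup.map_map]
  have hKfn : (K.map f).Normal := hKn.map f hfs
  set C := (K.map f).comap π with hC
  have hCn : C.Normal := hKfn.comap π
  have hCeq : C = K' ⊔ V := by
    rw [hC, ← hmapK, Subgroup.comap_map_eq, hker]
  have hVC : V ≤ C := by rw [hCeq]; exact le_sup_right
  have hCidx : ∃ j : ℕ, C.index = p ^ j := by
    have h1 : C.index = (K.map f).index :=
      Subgroup.index_comap_of_surjective _ (QuotientGroup.mk'_surjective V)
    have h2 : (K.map f).index ∣ K.index := Subgroup.index_map_dvd K hfs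
    rw [hk] at h2
    obtain ⟨j, -, hj⟩ := (Nat.dvd_prime_pow hp).1 h2
    exact ⟨j, h1.trans hj⟩
  have hVCidx : ¬ p ∣ V.relIndex C := by
    intro h
    rw [hCeq, Subgroup.relIndex_sup_right] at h
    apply hK
    rw [← hK'card]
    exact h.trans (Subgroup.relIndex_dvd_card V K')
  rcases hstep with ⟨m, hm⟩ | hm
  · -- `V / N` is a `p`-group
    refine ⟨N ⊓ K', V, C, normal_inf_map hp hK hk hNM, hV, hCn, inf_le_left.trans hNV, hVC,
      card_inf_map hK N, ?_, hVCidx, hCidx⟩
    obtain ⟨a, ha⟩ := relIndex_inf_map hp hk (N := N) hNM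
    refine ⟨a + m, ?_⟩
    rw [← Subgroup.relIndex_mul_relIndex _ N V inf_le_left hNV, ha, hm, pow_add]
  · refine ⟨N ⊓ K', N, C, normal_inf_map hp hK hk hNM, hNn, hCn, inf_le_left, hNV.trans hVC,
      card_inf_map hK N, relIndex_inf_map hp hk hNM, ?_, hCidx⟩
    rw [← Subgroup.relIndex_mul_relIndex N V C hNV hVC]
    intro h
    rcases (Nat.Prime.dvd_mul hp).1 h with h | h
    · exact hm h
    · exact hVCidx h

theorem hasSeries_of_nilpotent {G : Type*} [Group G] [Finite G] (p : ℕ) [hp : Fact p.Prime]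
    (F : Subgroup G) [hFn : F.Normal] (hN : Group.IsNilpotent F) (hQ : Group.IsNilpotent (G ⧸ F)) :
    HasSeries p G := by
  obtain ⟨L, hLn, hL, n, hn⟩ :=
    Cfsg.Agent.SolvableStructure.Schmidt.exists_normal_complement_of_isNilpotent hN p
  obtain ⟨L', hLn', hL', n', hn'⟩ :=
    Cfsg.Agent.SolvableStructure.Schmidt.exists_normal_complement_of_isNilpotent hQ p
  refine ⟨F ⊓ L.map F.subtype, F, L'.comap (QuotientGroup.mk' F),
    normal_inf_map hp.out hL hn le_rfl, hFn, hLn'.comap _, inf_le_left, ?_,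
    card_inf_map hL F, relIndex_inf_map hp.out hn le_rfl, ?_, n', ?_⟩
  · have := Subgroup.ker_le_comap (QuotientGroup.mk' F) L'
    rwa [QuotientGroup.ker_mk'] at this
  · intro hd
    apply hL'
    have h1 : F.relIndex (L'.comap (QuotientGroup.mk' F)) = Nat.card L' := by
      have h2 : (L'.comap (QuotientGroup.mk' F)).map (QuotientGroup.mk' F) = L' :=
        Subgroup.map_comap_eq_self_of_surjective (QuotientGroup.mk'_surjective F) L'
      have h3 : (⊥ : Subgroup (G ⧸ F)).comap (QuotientGroup.mk' F) = F := by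
        rw [MonoidHom.comap_bot, QuotientGroup.ker_mk']
      have h4 : ∀ X : Subgroup G, F.relIndex X =
          ((⊥ : Subgroup (G ⧸ F)).comap (QuotientGroup.mk' F)).relIndex X := by
        intro X; rw [h3]
      rw [h4, Subgroup.relIndex_comap, h2, Subgroup.relIndex_bot_left]
    rwa [h1] at hd
  · rw [Subgroup.index_comap_of_surjective _ (QuotientGroup.mk'_surjective F), hn']

theorem hasSeries_of_prime_index {G : Type*} [Group G] [Finite G] (p : ℕ) [hp : Fact p.Prime]
    (h : ∀ M : Subgroup G, IsCoatom M → M.index.Prime) : HasSeries p G := by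
  have hS : Cfsg.IsSupersolvable G :=
    Cfsg.Agent.SolvableStructure.HuppertPrimeIndex.isSupersolvable_of_maximal_prime_index h
  exact hasSeries_of_nilpotent p (commutator G)
    (Cfsg.Agent.SolvableStructure.Supersolvable.isNilpotent_commutator hS)
    (inferInstance : Group.IsNilpotent (Abelianization G))

theorem hasSeries {G : Type*} [Group G] [Finite G] (p : ℕ) [hp : Fact p.Prime]
    (hG : Cfsg.IsPSolvable p G)
    (hmax : ∀ M : Subgroup G, IsCoatom M → (∃ K : Subgroup ↥M, K.Normal ∧ ¬ p ∣ Nat.card K ∧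
      ∃ k : ℕ, K.index = p ^ k) ∨ (M.index).Prime) : HasSeries p G := by
  by_cases h : ∀ M : Subgroup G, IsCoatom M → M.index.Prime
  · exact hasSeries_of_prime_index p h
  · push Not at h
    obtain ⟨M, hM, hMi⟩ := h
    rcases hmax M hM with ⟨K, hKn, hK, k, hk⟩ | h1
    · exact hasSeries_of_maximal hp.out hG hM hK hk
    · exact absurd h1 hMi

end Cfsg.Agent.H579.PNilMax
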